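import Cfsg.Agent.Lib.SuzukiTwo.Anisotropic
import Cfsg.Agent.Lib.NormalPComplement.Frobenius
import Cfsg.Agent.Lib.OutSolvable.Main
import Mathlib.LinearAlgebra.Dual.Lemmas

/-!
The group preserving an anisotropic quadratic map with equal nonzero fibres, between spaces over the
field with two elements, is solvable, given the odd order theorem.
-/

set_option autoImplicit false
set_option linter.style.haveILetI false

namespace CfsgLib.OutSolvableInv

universe u

/-- The sign of a residue modulo two. -/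
def sgn (a : ZMod 2) : ℤ := if a = 0 then 1 else -1

theorem sgn_add : ∀ a b : ZMod 2, sgn (a + b) = sgn a * sgn b := by decide

@[simp] theorem sgn_zero : sgn 0 = 1 := rfl

theorem sgn_mul_self : ∀ a : ZMod 2, sgn a * sgn a = 1 := by decide

theorem zmod_two_cases : ∀ a : ZMod 2, a ≠ 0 → a = 1 := by decide

section QuadraticMaps

variable {V E : Type*} [AddCommGroup V] [Module (ZMod 2) V] [AddCommGroup E] [Module (ZMod 2) E]

theorem add_self_zero (x : V) : x + x = 0 := by
  rw [← two_smul (ZMod 2) x, show (2 : ZMod 2) = 0 from rfl, zero_smul]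

theorem neg_eq_self (x : V) : -x = x := neg_eq_of_add_eq_zero_right (add_self_zero x)

/-- An anisotropic quadratic map. -/
structure QMap (V E : Type*) [AddCommGroup V] [AddCommGroup E] where
  /-- the map -/
  Q : V → E
  /-- its polarisation -/
  B : V → V →+ E
  polar : ∀ x y, Q (x + y) = Q x + Q y + B x y
  aniso : ∀ x, Q x = 0 → x = 0

variable (M : QMap V E)

omit [Module (ZMod 2) V] [Module (ZMod 2) E] in
theorem QMap.q_zero : M.Q 0 = 0 := by
  have h := M.polar 0 0
  rw [add_zero, _root_.map_zero, add_zero] at h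
  exact left_eq_add.1 h

omit [Module (ZMod 2) V] [Module (ZMod 2) E] in
theorem QMap.b_comm (x y : V) : M.B x y = M.B y x := by
  have h1 := M.polar x y
  have h2 := M.polar y x
  rw [add_comm y x, h1, add_comm (M.Q y) (M.Q x)] at h2
  exact add_left_cancel h2

omit [Module (ZMod 2) V] [Module (ZMod 2) E] in
theorem QMap.b_zero (y : V) : M.B 0 y = 0 := by rw [M.b_comm, _root_.map_zero]

theorem QMap.b_self (x : V) : M.B x x = 0 := by
  have h := M.polar x x
  rw [add_self_zero x, M.q_zero, add_self_zero (M.Q x), zero_add] at h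
  exact h.symm

omit [Module (ZMod 2) V] [Module (ZMod 2) E] in
theorem QMap.b_add (x x' y : V) : M.B (x + x') y = M.B x y + M.B x' y := by
  rw [M.b_comm, _root_.map_add, M.b_comm y x, M.b_comm y x']

omit [Module (ZMod 2) V] [Module (ZMod 2) E] in
theorem QMap.b_eq_of_map {α : V →+ V} (hα : ∀ v, M.Q (α v) = M.Q v) (x y : V) :
    M.B (α x) (α y) = M.B x y := by
  have h1 := M.polar (α x) (α y)
  rw [← _root_.map_add, hα, hα, hα, M.polar x y] at h1
  exact (add_left_cancel h1).symm

omit [Module (ZMod 2) V] [Module (ZMod 2) E] in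
/-- A fixed vector is orthogonal to every moved difference. -/
theorem QMap.b_fixed_diff {α : V →+ V} (hα : ∀ v, M.Q (α v) = M.Q v) {c : V} (hc : α c = c) (v : V) :
    M.B c (α v - v) = 0 := by
  have := M.b_eq_of_map hα c v
  rw [hc] at this
  rw [map_sub, this, sub_self]

variable [Finite V]

/-- The character sum of a subgroup. -/
noncomputable def QMap.csum (φ : Module.Dual (ZMod 2) E) (W : AddSubgroup V) : ℤ :=
  ∑ᶠ v : W, sgn (φ (M.Q v))

theorem sum_sgn_eq_zero {G : Type*} [AddCommGroup G] [Fintype G] (h : G →+ ZMod 2)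
    (hne : ∃ x, h x ≠ 0) : ∑ x, sgn (h x) = 0 := by
  obtain ⟨x₀, hx₀⟩ := hne
  have h1 : ∑ x, sgn (h x) = ∑ x, sgn (h (x + x₀)) :=
    (Equiv.sum_comp (Equiv.addRight x₀) (fun x => sgn (h x))).symm
  simp only [map_add, sgn_add, zmod_two_cases _ hx₀, ← Finset.sum_mul] at h1
  rw [show sgn 1 = -1 from rfl] at h1
  omega

theorem QMap.csum_sq (φ : Module.Dual (ZMod 2) E) (W : AddSubgroup V) [Fintype W] :
    M.csum φ W ^ 2 = ∑ z : W, sgn (φ (M.Q z)) * ∑ x : W, sgn (φ (M.B x z)) := by
  classical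
  have hdef : M.csum φ W = ∑ v : W, sgn (φ (M.Q v)) := by
    unfold QMap.csum
    exact finsum_eq_sum_of_fintype _
  rw [hdef, sq, Finset.sum_mul_sum]
  calc ∑ x : W, ∑ y : W, sgn (φ (M.Q x)) * sgn (φ (M.Q y))
      = ∑ x : W, ∑ z : W, sgn (φ (M.Q x)) * sgn (φ (M.Q ((x + z : W) : V))) := by
        refine Finset.sum_congr rfl fun x _ => ?_
        exact (Equiv.sum_comp (Equiv.addLeft x)
          (fun y : W => sgn (φ (M.Q x)) * sgn (φ (M.Q y)))).symm
    _ = ∑ x : W, ∑ z : W, sgn (φ (M.Q z)) * sgn (φ (M.B x z)) := by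
        refine Finset.sum_congr rfl fun x _ => Finset.sum_congr rfl fun z _ => ?_
        rw [AddSubgroup.coe_add, M.polar, map_add, map_add, sgn_add, sgn_add,
          show sgn (φ (M.Q x)) * (sgn (φ (M.Q x)) * sgn (φ (M.Q z)) * sgn (φ (M.B x z))) =
            (sgn (φ (M.Q x)) * sgn (φ (M.Q x))) * (sgn (φ (M.Q z)) * sgn (φ (M.B x z))) by ring,
          sgn_mul_self, one_mul]
    _ = _ := by rw [Finset.sum_comm]; exact Finset.sum_congr rfl fun z _ => by rw [Finset.mul_sum]

/-- A non-degenerate form on a subgroup has character sum of square the order. -/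
theorem QMap.csum_sq_of_nondegenerate (φ : Module.Dual (ZMod 2) E) (W : AddSubgroup V)
    (hrad : ∀ z ∈ W, (∀ x ∈ W, φ (M.B x z) = 0) → z = 0) :
    M.csum φ W ^ 2 = Nat.card W := by
  classical
  haveI := Fintype.ofFinite W
  rw [M.csum_sq φ W, Finset.sum_eq_single (0 : W)]
  · simp [M.q_zero]
  · intro z _ hz
    have hex : ∃ x : W, φ (M.B x z) ≠ 0 := by
      by_contra h
      push Not at h
      exact hz (Subtype.ext (hrad z z.2 fun x hx => h ⟨x, hx⟩))
    have := sum_sgn_eq_zero (G := W) (AddMonoidHom.mk' (fun x : W => φ (M.B x z))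
      fun a b => by rw [AddSubgroup.coe_add, M.b_add, map_add]) hex
    simp only [AddMonoidHom.mk'_apply] at this
    rw [this, mul_zero]
  · simp

variable [Finite E]

theorem sum_dual_sgn [Fintype (Module.Dual (ZMod 2) E)] (e : E) (he : e ≠ 0) :
    ∑ φ : Module.Dual (ZMod 2) E, sgn (φ e) = 0 := by
  refine sum_sgn_eq_zero (AddMonoidHom.mk' (fun φ : Module.Dual (ZMod 2) E => φ e)
    fun a b => LinearMap.add_apply a b e) ?_
  by_contra h
  push Not at h
  exact he ((Module.forall_dual_apply_eq_zero_iff (ZMod 2) e).1 h)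

theorem natCard_dual : Nat.card (Module.Dual (ZMod 2) E) = Nat.card E := by
  haveI : Module.Finite (ZMod 2) E := Module.Finite.of_finite
  rw [Module.natCard_eq_pow_finrank (K := ZMod 2) (V := E),
    Module.natCard_eq_pow_finrank (K := ZMod 2) (V := Module.Dual (ZMod 2) E), Subspace.dual_finrank_eq]

/-- The sum over all characters only sees the zero vector. -/
theorem QMap.sum_csum [Fintype (Module.Dual (ZMod 2) E)] (W : AddSubgroup V) :
    ∑ φ : Module.Dual (ZMod 2) E, M.csum φ W = Nat.card E := by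
  classical
  haveI := Fintype.ofFinite W
  have hdef : ∀ φ : Module.Dual (ZMod 2) E, M.csum φ W = ∑ v : W, sgn (φ (M.Q v)) := fun φ => by
    unfold QMap.csum
    exact finsum_eq_sum_of_fintype _
  simp only [hdef]
  rw [Finset.sum_comm, Finset.sum_eq_single (0 : W)]
  · simp [M.q_zero, ← natCard_dual (E := E), Nat.card_eq_fintype_card]
  · intro v _ hv
    exact sum_dual_sgn _ fun h => hv (Subtype.ext (M.aniso _ h))
  · simp

end QuadraticMaps

section Solvable

variable {V E : Type*} [AddCommGroup V] [Module (ZMod 2) V] [AddCommGroup E] [Module (ZMod 2) E]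
  [Finite V] [Finite E] (M : QMap V E)

theorem odd_sum_iff {ι : Type*} (s : Finset ι) (F : ι → ℤ) (h : ∀ i ∈ s, Odd (F i)) :
    Odd (∑ i ∈ s, F i) ↔ Odd s.card := by
  classical
  induction s using Finset.induction with
  | empty => simp
  | insert a s ha ih =>
    rw [Finset.sum_insert ha, Finset.card_insert_of_notMem ha, Nat.odd_add_one, Int.odd_add,
      ← ih fun i hi => h i (Finset.mem_insert_of_mem hi), Int.not_odd_iff_even]
    exact iff_true_left (h a (Finset.mem_insert_self a s))

theorem natCard_two_pow (W : Type*) [AddCommGroup W] [Module (ZMod 2) W] [Finite W] :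
    ∃ n, Nat.card W = 2 ^ n := by
  haveI : Module.Finite (ZMod 2) W := Module.Finite.of_finite
  exact ⟨_, by rw [Module.natCard_eq_pow_finrank (K := ZMod 2) (V := W), Nat.card_zmod]⟩

/-- With equal fibres, `Q` is injective or the space has the square order and every form is
elliptic. -/
theorem QMap.injective_or_elliptic
    (htrans : ∀ e e' : E, e ≠ 0 → e' ≠ 0 → Nat.card {v // M.Q v = e} = Nat.card {v // M.Q v = e'}) :
    Function.Injective M.Q ∨ ∃ n, Nat.card E = 2 ^ n ∧ Nat.card V = 2 ^ (2 * n) ∧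
      ∀ φ : Module.Dual (ZMod 2) E, φ ≠ 0 → M.csum φ ⊤ = -(2 ^ n : ℤ) := by
  classical
  haveI := Fintype.ofFinite V
  haveI := Fintype.ofFinite E
  rcases subsingleton_or_nontrivial E with hE | hE
  · exact Or.inl fun x y _ => by rw [M.aniso x (Subsingleton.elim _ _), M.aniso y (Subsingleton.elim _ _)]
  obtain ⟨e₀, he₀⟩ := exists_ne (0 : E)
  set c := Nat.card {v // M.Q v = e₀} with hc
  have h0 : Nat.card {v // M.Q v = (0 : E)} = 1 := by
    rw [Nat.card_eq_one_iff_unique]
    exact ⟨⟨fun a b => Subtype.ext ((M.aniso _ a.2).trans (M.aniso _ b.2).symm)⟩, ⟨⟨0, M.q_zero⟩⟩⟩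
  have hcard : ∀ e : E, (Finset.univ.filter fun v => M.Q v = e).card = if e = 0 then 1 else c := by
    intro e
    rw [← Fintype.card_subtype, ← Nat.card_eq_fintype_card]
    split_ifs with h
    · rw [h, h0]
    · exact htrans e e₀ h he₀
  have hVsum : Fintype.card V = ∑ e : E, (if e = 0 then 1 else c) := by
    rw [← Finset.card_univ, Finset.card_eq_sum_card_fiberwise (f := M.Q) (t := Finset.univ)
      (fun x _ => Finset.mem_univ _)]
    exact Finset.sum_congr rfl fun e _ => hcard e
  have hV1 : Fintype.card V = 1 + (Fintype.card E - 1) * c := by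
    rw [hVsum, Finset.sum_eq_add_sum_sdiff_singleton_of_mem (Finset.mem_univ (0 : E)), if_pos rfl,
      Finset.sum_congr rfl (fun e he => if_neg (by simpa using he)), Finset.sum_const, smul_eq_mul,
      Finset.card_sdiff_of_subset (Finset.subset_univ _), Finset.card_univ, Finset.card_singleton]
  by_cases hc1 : c ≤ 1
  · left
    intro x y hxy
    by_cases hx : M.Q x = 0
    · rw [M.aniso x hx, M.aniso y (hxy ▸ hx)]
    · have h := hcard (M.Q x)
      rw [if_neg hx] at h
      exact (Finset.card_le_one.1 (by omega : (Finset.univ.filter fun v => M.Q v = M.Q x).card ≤ 1))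
        x (by simp) y (by simp [hxy])
  right
  obtain ⟨n, hn⟩ := natCard_two_pow E
  obtain ⟨m, hm⟩ := natCard_two_pow V
  have hq : 2 ≤ 2 ^ n := hn ▸ Finite.one_lt_card
  simp only [← Nat.card_eq_fintype_card, hn, hm] at hV1
  have hle : 2 ^ m ≤ 2 ^ (2 * n) := by
    rw [← hm, pow_mul', ← hn]
    exact CfsgLib.SuzukiTwo.card_le_sq_of_anisotropic M.Q M.B M.polar M.q_zero M.aniso
  have hm2 : m ≤ 2 * n := (Nat.pow_le_pow_iff_right (by norm_num)).1 hle
  have hnm : n < m := by
    refine (Nat.pow_lt_pow_iff_right (a := 2) (by norm_num)).1 ?_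
    have : (2 ^ n - 1) * 2 ≤ (2 ^ n - 1) * c := Nat.mul_le_mul_left _ (by omega)
    omega
  have hdvd : 2 ^ n - 1 ∣ 2 ^ m - 1 := ⟨c, by omega⟩
  have hnm' : n ∣ m := by
    have h := Nat.pow_sub_one_gcd_pow_sub_one 2 n m
    rw [Nat.gcd_eq_left hdvd] at h
    have h2 : 2 ^ n = 2 ^ Nat.gcd n m := by
      have := Nat.one_le_two_pow (n := Nat.gcd n m)
      omega
    exact Nat.gcd_eq_left_iff_dvd.1 (Nat.pow_right_injective le_rfl h2).symm
  have hmn : m = 2 * n := by
    obtain ⟨j, rfl⟩ := hnm'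
    have hn0 : 0 < n := by
      rcases Nat.eq_zero_or_pos n with h | h
      · subst h; omega
      · exact h
    have hj1 : 1 < j := by
      by_contra h
      interval_cases j <;> omega
    have hj2 : j ≤ 2 := Nat.le_of_mul_le_mul_left (mul_comm 2 n ▸ hm2) hn0
    rw [show j = 2 by omega, mul_comm]
  subst hmn
  have hcq : c = 2 ^ n + 1 := by
    have h2 : (2 ^ n - 1) * c = (2 ^ n - 1) * (2 ^ n + 1) := by
      have : (2 ^ n - 1) * (2 ^ n + 1) = 2 ^ (2 * n) - 1 := by
        rw [mul_comm (2 ^ n - 1), ← Nat.sq_sub_sq, one_pow, ← pow_mul, mul_comm n 2]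
      omega
    exact mul_left_cancel₀ (by omega) h2
  refine ⟨n, hn, hm, fun φ hφ => ?_⟩
  have hdef : M.csum φ ⊤ = ∑ v : V, sgn (φ (M.Q v)) := by
    unfold QMap.csum
    haveI := Fintype.ofFinite (⊤ : AddSubgroup V)
    rw [finsum_eq_sum_of_fintype, ← Equiv.sum_comp (AddSubgroup.topEquiv (G := V)).toEquiv (fun v => sgn (φ (M.Q v)))]
    rfl
  rw [hdef, ← Finset.sum_fiberwise_of_maps_to (fun x _ => Finset.mem_univ (M.Q x))]
  have hfib : ∀ e : E, ∑ v ∈ Finset.univ.filter (fun v => M.Q v = e), sgn (φ (M.Q v)) =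
      (c : ℤ) * sgn (φ e) + (if e = 0 then 1 - (c : ℤ) else 0) := fun e => by
    rw [Finset.sum_congr rfl (fun v hv => by rw [(Finset.mem_filter.1 hv).2]), Finset.sum_const,
      hcard e, nsmul_eq_mul]
    split_ifs with h
    · subst h; simp
    · simp
  rw [Finset.sum_congr rfl fun e _ => hfib e, Finset.sum_add_distrib, ← Finset.mul_sum,
    Finset.sum_ite_eq' Finset.univ (0 : E), if_pos (Finset.mem_univ _),
    show (∑ e : E, sgn (φ e)) = 0 from sum_sgn_eq_zero φ.toAddMonoidHom (by
      by_contra h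
      push Not at h
      exact hφ (LinearMap.ext h)), mul_zero, zero_add, hcq]
  push_cast
  ring

/-- An automorphism of odd order of an elliptic map fixing a non-zero vector is trivial. -/
theorem QMap.fixed_point_free {n : ℕ} (hE : Nat.card E = 2 ^ n) (hV : Nat.card V = 2 ^ (2 * n))
    (hS : ∀ φ : Module.Dual (ZMod 2) E, φ ≠ 0 → M.csum φ ⊤ = -(2 ^ n : ℤ))
    (α : AddAut V) (hα : ∀ v, M.Q (α v) = M.Q v) {k : ℕ} (hk : Odd k) (hαk : ∀ v, (α^[k]) v = v)
    {v₀ : V} (hv₀ : v₀ ≠ 0) (hfix : α v₀ = v₀) (v : V) : α v = v := by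
  classical
  set T : V →+ V := α.toAddMonoidHom - AddMonoidHom.id V with hT
  have hTa : ∀ x, T x = α x - x := fun x => rfl
  set C := T.ker with hC
  set D := T.range with hD
  have hCmem : ∀ {x}, x ∈ C ↔ α x = x := fun {x} => by
    rw [hC, AddMonoidHom.mem_ker, hTa, sub_eq_zero]
  have hCD : ∀ x ∈ C, ∀ y ∈ D, M.B x y = 0 := by
    rintro x hx _ ⟨y, rfl⟩
    exact M.b_fixed_diff (α := α.toAddMonoidHom) hα (hCmem.1 hx) y
  have hdisj : ∀ x, x ∈ C → x ∈ D → x = 0 := by
    rintro x hx ⟨y, rfl⟩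
    have hfix' : α (T y) = T y := hCmem.1 hx
    have hy : α y = y + T y := by rw [hTa]; abel
    have hit : ∀ i : ℕ, (α^[i]) y = y + i • T y := by
      intro i
      induction i with
      | zero => simp
      | succ i ih =>
        rw [Function.iterate_succ_apply', ih, map_add, map_nsmul, hfix', hy, succ_nsmul]
        abel
    have h2 := hit k
    rw [hαk, left_eq_add] at h2
    obtain ⟨j, rfl⟩ := hk
    rwa [add_nsmul, mul_comm, mul_nsmul, two_nsmul, add_self_zero, zero_add, one_nsmul] at h2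
  have hmul : Nat.card C * Nat.card D = Nat.card V := by
    rw [hD, ← AddSubgroup.index_ker, ← hC, AddSubgroup.card_mul_index]
  let e : C × D → V := fun p => (p.1 : V) + p.2
  have hinj : Function.Injective e := by
    rintro ⟨a, b⟩ ⟨a', b'⟩ h
    have h' : (a : V) - a' = b' - b := sub_eq_sub_iff_add_eq_add.2 (by
      simpa [e, add_comm] using h)
    have h0 := hdisj _ (C.sub_mem a.2 a'.2) (h' ▸ D.sub_mem b'.2 b.2)
    rw [h0, eq_comm, sub_eq_zero] at h'
    rw [sub_eq_zero] at h0
    exact Prod.ext (Subtype.ext h0) (Subtype.ext h'.symm)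
  have hbij : Function.Bijective e :=
    (Nat.bijective_iff_injective_and_card e).2 ⟨hinj, by rw [Nat.card_prod, hmul]⟩
  haveI := Fintype.ofFinite V
  haveI := Fintype.ofFinite C
  haveI := Fintype.ofFinite D
  haveI := Fintype.ofFinite (⊤ : AddSubgroup V)
  -- every form is non-degenerate on the fixed and on the moved part
  have hrad : ∀ φ : Module.Dual (ZMod 2) E, φ ≠ 0 →
      ∀ z, (∀ x, φ (M.B x z) = 0) → z = 0 := by
    intro φ hφ z hz
    let K : AddSubgroup V :=
      { carrier := {z | ∀ x, φ (M.B x z) = 0}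
        zero_mem' := fun x => by rw [_root_.map_zero, _root_.map_zero]
        add_mem' := fun ha hb x => by rw [map_add, map_add, ha x, hb x, add_zero]
        neg_mem' := fun ha x => by rw [map_neg, map_neg, ha x, neg_zero] }
    haveI := Fintype.ofFinite K
    have h1 := M.csum_sq φ ⊤
    rw [hS φ hφ] at h1
    have hfilter : ∀ z : (⊤ : AddSubgroup V), sgn (φ (M.Q z)) * ∑ x : (⊤ : AddSubgroup V), sgn (φ (M.B x z)) =
        if (z : V) ∈ K then sgn (φ (M.Q z)) * (2 ^ (2 * n) : ℤ) else 0 := by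
      intro z
      split_ifs with hzK
      · rw [Finset.sum_congr rfl fun (x : (⊤ : AddSubgroup V)) _ => by rw [hzK x, sgn_zero],
          Finset.sum_const, Finset.card_univ, ← Nat.card_eq_fintype_card, AddSubgroup.card_top, hV]
        simp
      · have := sum_sgn_eq_zero (G := (⊤ : AddSubgroup V))
          (AddMonoidHom.mk' (fun x : (⊤ : AddSubgroup V) => φ (M.B x z))
            fun a b => by rw [AddSubgroup.coe_add, M.b_add, map_add]) (by
            by_contra h
            push Not at h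
            exact hzK fun x => h ⟨x, AddSubgroup.mem_top x⟩)
        simp only [AddMonoidHom.mk'_apply] at this
        rw [this, mul_zero]
    rw [Finset.sum_congr rfl fun z _ => hfilter z, ← Finset.sum_filter, ← Finset.sum_mul] at h1
    have hsumK : ∑ z ∈ Finset.univ.filter (fun z : (⊤ : AddSubgroup V) => (z : V) ∈ K),
        sgn (φ (M.Q z)) = ∑ z : K, sgn (φ (M.Q z)) :=
      Finset.sum_nbij' (fun z => if h : (z : V) ∈ K then ⟨z, h⟩ else 0)
        (fun z => ⟨z, AddSubgroup.mem_top _⟩) (fun _ _ => Finset.mem_univ _)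
        (fun z _ => by simp)
        (fun z hz => by simp only [Finset.mem_filter] at hz; simp [hz.2])
        (fun z _ => by simp)
        (fun z hz => by simp only [Finset.mem_filter] at hz; simp [hz.2])
    rw [hsumK] at h1
    let h : K →+ ZMod 2 := AddMonoidHom.mk' (fun z : K => φ (M.Q z)) fun a b => by
      rw [AddSubgroup.coe_add, M.polar, map_add, map_add,
        show φ (M.B (a : V) (b : V)) = 0 from b.2 a, add_zero]
    have hK1 : ∑ z : K, sgn (φ (M.Q z)) = 1 := by
      have hp : (2 : ℤ) ^ (2 * n) ≠ 0 := by positivity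
      apply mul_right_cancel₀ hp
      rw [one_mul, ← h1, neg_sq, ← pow_mul, mul_comm n 2]
    by_cases hne : ∃ z, h z ≠ 0
    · rw [show ∑ z : K, sgn (φ (M.Q z)) = ∑ z, sgn (h z) from rfl, sum_sgn_eq_zero h hne] at hK1
      exact absurd hK1 zero_ne_one
    · push Not at hne
      rw [Finset.sum_congr rfl fun (z : K) _ => by rw [show φ (M.Q z) = 0 from hne z, sgn_zero],
        Finset.sum_const, Finset.card_univ] at hK1
      have : Subsingleton K := Fintype.card_le_one_iff_subsingleton.1 (le_of_eq (by simpa using hK1))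
      exact congrArg Subtype.val (Subsingleton.elim (⟨z, hz⟩ : K) 0)
  have hDnd : ∀ φ : Module.Dual (ZMod 2) E, φ ≠ 0 → M.csum φ D ^ 2 = Nat.card D := fun φ hφ =>
    M.csum_sq_of_nondegenerate φ D fun z hz h => hrad φ hφ z fun x => by
      obtain ⟨⟨c, d⟩, rfl⟩ := hbij.2 x
      show φ (M.B ((c : V) + d) z) = 0
      rw [M.b_add, map_add, hCD c c.2 z hz, _root_.map_zero, zero_add]
      exact h d d.2
  by_contra hne
  -- both parts are proper
  have hDbot : D ≠ ⊥ := fun h => hne (by
    have h1 : T v ∈ D := ⟨v, rfl⟩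
    rw [h, AddSubgroup.mem_bot, hTa, sub_eq_zero] at h1
    exact h1)
  have hCgt : 1 < Nat.card C := Finite.one_lt_card_iff_nontrivial.2
    ⟨⟨⟨v₀, hCmem.2 hfix⟩, 0, fun h => hv₀ (congrArg Subtype.val h)⟩⟩
  have hDgt : 1 < Nat.card D := (AddSubgroup.one_lt_card_iff_ne_bot D).2 hDbot
  haveI : Finite (Module.Dual (ZMod 2) E) :=
    Nat.finite_of_card_ne_zero (by rw [natCard_dual]; exact Nat.card_pos.ne')
  haveI := Fintype.ofFinite (Module.Dual (ZMod 2) E)
  obtain ⟨d, hd⟩ : ∃ d, Nat.card D = 2 ^ d := by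
    have h : Nat.card D ∣ 2 ^ (2 * n) := hV ▸ AddSubgroup.card_addSubgroup_dvd_card D
    obtain ⟨d, -, hd⟩ := (Nat.dvd_prime_pow Nat.prime_two).1 h
    exact ⟨d, hd⟩
  have hn0 : n ≠ 0 := fun h => by
    subst h
    rw [hV] at hmul
    simp only [mul_zero, pow_zero, mul_eq_one] at hmul
    omega
  have hexφ : ∃ φ : Module.Dual (ZMod 2) E, φ ≠ 0 := by
    by_contra h
    push Not at h
    have h1 : Nat.card (Module.Dual (ZMod 2) E) = 1 :=
      Nat.card_eq_one_iff_unique.2 ⟨⟨fun a b => (h a).trans (h b).symm⟩, ⟨0⟩⟩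
    rw [natCard_dual, hE] at h1
    exact hn0 ((Nat.pow_eq_one.1 h1).resolve_left (by norm_num))
  have hfact : ∀ φ : Module.Dual (ZMod 2) E, φ ≠ 0 →
      ∃ i, 2 * i = d ∧ (M.csum φ D).natAbs = 2 ^ i := by
    intro φ hφ
    have h1 := congrArg Int.natAbs (hDnd φ hφ)
    rw [Int.natAbs_pow, Int.natAbs_natCast, hd] at h1
    obtain ⟨i, -, hi⟩ := (Nat.dvd_prime_pow Nat.prime_two).1 (h1 ▸ dvd_pow_self _ two_ne_zero)
    rw [hi, ← pow_mul] at h1
    exact ⟨i, by have := Nat.pow_right_injective le_rfl h1; omega, hi⟩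
  obtain ⟨φ₀, hφ₀⟩ := hexφ
  obtain ⟨k', hk', -⟩ := hfact φ₀ hφ₀
  replace hk' : d = 2 * k' := hk'.symm
  have hk0 : 0 < k' := by
    rcases Nat.eq_zero_or_pos k' with h | h
    · subst h; rw [hd, hk', mul_zero, pow_zero] at hDgt; omega
    · exact h
  have hkn : k' < n := by
    have : 2 ^ d < 2 ^ (2 * n) := by
      rw [← hd, ← hV, ← hmul]
      exact lt_mul_of_one_lt_left (by omega) hCgt
    have := (Nat.pow_lt_pow_iff_right (by norm_num)).1 this
    omega
  have hval : ∀ φ : Module.Dual (ZMod 2) E, φ ≠ 0 →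
      ∃ w : ℤ, Odd w ∧ M.csum φ D = 2 ^ k' * w := fun φ hφ => by
    obtain ⟨i, h1, h2⟩ := hfact φ hφ
    rw [show i = k' by omega] at h2
    rcases Int.natAbs_eq (M.csum φ D) with h | h
    · exact ⟨1, odd_one, by rw [h, h2]; push_cast; ring⟩
    · exact ⟨-1, by decide, by rw [h, h2]; push_cast; ring⟩
  choose w hw1 hw2 using hval
  have hsum := M.sum_csum D
  have h0 : M.csum 0 D = 2 ^ (2 * k') := by
    unfold QMap.csum
    rw [finsum_eq_sum_of_fintype]
    simp [← Nat.card_eq_fintype_card, hd, hk']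
  rw [Finset.sum_eq_add_sum_sdiff_singleton_of_mem (Finset.mem_univ (0 : Module.Dual (ZMod 2) E)), h0,
    Finset.sum_congr rfl (g := fun φ => (2 : ℤ) ^ k' * (if h : φ ≠ 0 then w φ h else 0)) (fun φ hφ => by
      have : φ ≠ 0 := by simpa using hφ
      rw [dif_pos this, ← hw2]), ← Finset.mul_sum, hE] at hsum
  push_cast at hsum
  have hodd : Odd (∑ φ ∈ Finset.univ \ {(0 : Module.Dual (ZMod 2) E)}, if h : φ ≠ 0 then w φ h else 0) := by
    rw [odd_sum_iff _ _ fun φ hφ => by
        have h : φ ≠ 0 := by simpa using hφ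
        rw [dif_pos h]; exact hw1 φ h,
      Finset.card_sdiff_of_subset (Finset.subset_univ _), Finset.card_univ, Finset.card_singleton,
      ← Nat.card_eq_fintype_card, natCard_dual, hE]
    exact Nat.Even.sub_odd (Nat.one_le_two_pow) ((Nat.even_pow' hn0).2 even_two) odd_one
  rw [show (2 : ℤ) ^ n = 2 ^ k' * 2 ^ (n - k') by rw [← pow_add]; congr 1; omega,
    show (2 : ℤ) ^ (2 * k') = 2 ^ k' * 2 ^ k' by rw [← pow_add]; congr 1; omega, ← mul_add] at hsum
  have hsum2 := mul_left_cancel₀ (by positivity) hsum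
  have hpar : Even ((2 : ℤ) ^ (n - k')) := (Int.even_pow' (by omega)).2 even_two
  rw [← hsum2] at hpar
  exact Int.not_even_iff_odd.2 (((Int.even_pow' hk0.ne').2 even_two).add_odd hodd) hpar

open CfsgLib.NormalPComplement in
/-- The group of an anisotropic quadratic map with equal nonzero fibres is solvable. -/
theorem QMap.isSolvable (FT : CfsgLib.OutSolvable.OddOrderStatement.{u})
    (htrans : ∀ e e' : E, e ≠ 0 → e' ≠ 0 → Nat.card {v // M.Q v = e} = Nat.card {v // M.Q v = e'})
    {Γ : Type u} [Group Γ] [Finite Γ] (f : Γ → AddAut V) (hf1 : ∀ v, f 1 v = v)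
    (hfm : ∀ a b v, f (a * b) v = f a (f b v)) (hf : ∀ g, (∀ v, f g v = v) → g = 1)
    (hQ : ∀ g v, M.Q (f g v) = M.Q v) :
    Group.IsSolvable Γ := by
  classical
  haveI : Fact (Nat.Prime 2) := ⟨Nat.prime_two⟩
  rcases M.injective_or_elliptic htrans with hinj | ⟨n, hn, hm, hS⟩
  · haveI : Subsingleton Γ := subsingleton_of_forall_eq 1 fun g => hf g fun v => hinj (hQ g v)
    exact Group.isSolvable_of_comm fun a b => Subsingleton.elim _ _
  have hit : ∀ (g : Γ) (i : ℕ) v, (f g)^[i] v = f (g ^ i) v := by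
    intro g i
    induction i with
    | zero => intro v; rw [pow_zero, hf1]; rfl
    | succ i ih => intro v; rw [Function.iterate_succ_apply', ih, pow_succ', hfm]
  have hsemi : ∀ g : Γ, Odd (orderOf g) → ∀ v, v ≠ 0 → f g v = v → g = 1 := fun g hg v hv hgv =>
    hf g (M.fixed_point_free hn hm hS (f g) (hQ g) hg
      (fun w => by rw [hit, pow_orderOf_eq_one, hf1]) hv hgv)
  have hFC : FrobeniusCondition 2 Γ := by
    intro T hT g hg hcop
    rcases eq_or_ne T ⊥ with rfl | hne
    · exact Subgroup.mem_centralizer_iff.2 fun x hx => by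
        rw [Subgroup.mem_bot.1 hx, one_mul, mul_one]
    have hodd : Odd (orderOf g) := Nat.coprime_two_right.1 hcop
    suffices g = 1 by rw [this]; exact one_mem _
    haveI : Nontrivial T := (Subgroup.nontrivial_iff_ne_bot T).2 hne
    haveI : Nontrivial (Subgroup.center T) := hT.center_nontrivial
    obtain ⟨z, hz⟩ : ∃ z : Subgroup.center T, orderOf z = 2 := by
      refine exists_prime_orderOf_dvd_card' 2 ?_
      obtain ⟨i, hi⟩ := IsPGroup.iff_card.1 (hT.to_subgroup (Subgroup.center T))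
      rcases i with _ | i
      · have := Finite.one_lt_card (α := Subgroup.center T); rw [hi] at this; simp at this
      · exact hi ▸ dvd_pow_self 2 (Nat.succ_ne_zero i)
    set b : Γ := ((z : T) : Γ) with hb
    have hb1 : b ≠ 1 := fun h => by
      have : z = 1 := Subtype.ext (Subtype.ext h)
      rw [this, orderOf_one] at hz
      omega
    have hbb : ∀ v, f b (f b v) = v := fun v => by
      rw [← hfm, show b * b = 1 from congrArg (fun w : Subgroup.center T => ((w : T) : Γ))
        (show z * z = 1 by rw [← pow_two, ← hz, pow_orderOf_eq_one]), hf1]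
    set W : V →+ V := (f b).toAddMonoidHom - AddMonoidHom.id V with hW
    have hWa : ∀ v, W v = f b v - v := fun v => rfl
    have hfixW : ∀ d ∈ W.range, f b d = d := by
      rintro _ ⟨v, rfl⟩
      rw [hWa, map_sub, hbb, ← neg_sub, neg_eq_self]
    have hTW : ∀ t ∈ T, ∀ d ∈ W.range, f t d ∈ W.range := by
      rintro t ht _ ⟨v, rfl⟩
      have hc : t * b = b * t := congrArg Subtype.val (Subgroup.mem_center_iff.1 z.2 ⟨t, ht⟩)
      exact ⟨f t v, by rw [hWa, hWa, map_sub, ← hfm, ← hfm, hc]⟩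
    letI : MulAction T W.range :=
      { smul := fun t d => ⟨f t d, hTW t t.2 d d.2⟩
        one_smul := fun d => Subtype.ext (hf1 d)
        mul_smul := fun s t d => Subtype.ext (hfm s t d) }
    have hWne : W.range ≠ ⊥ := fun h => hb1 (hf b fun v => by
      have h1 : W v ∈ W.range := ⟨v, rfl⟩
      rw [h, AddSubgroup.mem_bot, hWa, sub_eq_zero] at h1
      exact h1)
    have h2W : 2 ∣ Nat.card W.range := by
      obtain ⟨i, -, hi⟩ := (Nat.dvd_prime_pow Nat.prime_two).1
        (hm ▸ AddSubgroup.card_addSubgroup_dvd_card W.range)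
      rcases i with _ | i
      · exact absurd (AddSubgroup.card_eq_one.1 (hi.trans (pow_zero 2))) hWne
      · exact hi ▸ dvd_pow_self 2 (Nat.succ_ne_zero i)
    have h0fix : (0 : W.range) ∈ MulAction.fixedPoints T W.range := fun t =>
      Subtype.ext (_root_.map_zero (f t))
    obtain ⟨d₁, hd₁, hd₁0⟩ := hT.exists_fixed_point_of_prime_dvd_card_of_fixed_point W.range h2W h0fix
    have hd1 : ∀ t ∈ T, f t d₁ = d₁ := fun t ht => congrArg Subtype.val (hd₁ ⟨t, ht⟩)
    have hd1ne : (d₁ : V) ≠ 0 := fun h => hd₁0 (Subtype.ext h.symm)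
    refine hsemi g hodd _ hd1ne ?_
    obtain ⟨v, hv⟩ := d₁.2
    have hfix2 : f b (f g d₁) = f g d₁ := by
      have ht : g⁻¹ * b * g ∈ T := by
        have := (Subgroup.mem_normalizer_iff.1 (inv_mem hg) b).1 (z : T).2
        rwa [inv_inv] at this
      have := congrArg (f g) (hd1 _ ht)
      rwa [← hfm, show g * (g⁻¹ * b * g) = b * g by group, hfm] at this
    have horth : M.B (f g d₁) d₁ = 0 := by
      rw [← hv, hWa]
      rw [← hv, hWa] at hfix2
      exact M.b_fixed_diff (α := (f b).toAddMonoidHom) (hQ b) hfix2 v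
    have hsum : M.Q (f g d₁ + d₁) = 0 := by
      rw [M.polar, hQ, horth, add_zero, add_self_zero]
    have := M.aniso _ hsum
    rwa [← eq_neg_iff_add_eq_zero, neg_eq_self] at this
  have hc := hasNormalPComplement_of_frobeniusCondition hFC
  have hq := hasNormalPComplement_iff_isPGroup_quotient.1 hc
  haveI : Group.IsSolvable (Cfsg.pPrimeCore 2 Γ) := FT _ CfsgLib.Cores.odd_card_oddCore
  haveI := hq.isNilpotent
  exact (Group.isSolvable_iff_subgroup_quotient (Cfsg.pPrimeCore 2 Γ)).2 ⟨inferInstance, inferInstance⟩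

end Solvable

end CfsgLib.OutSolvableInv
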