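import Cfsg.Agent.Lib.OutSolvableInv.Anisotropic
import Cfsg.Agent.Lib.PGroups.Aut

/-!
The automorphisms of a class two 2-group fixing its involutions form a solvable group, when the
involutions are central and permuted transitively by all automorphisms.
-/

set_option autoImplicit false
set_option linter.style.haveILetI false

namespace CfsgLib.OutSolvableInv

universe u

/-- A finite group without non-trivial elements of odd order is a 2-group, hence solvable. -/
theorem isSolvable_of_odd_trivial {H : Type*} [Group H] [Finite H]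
    (h : ∀ g : H, Odd (orderOf g) → g = 1) : Group.IsSolvable H := by
  haveI : Fact (Nat.Prime 2) := ⟨Nat.prime_two⟩
  obtain ⟨n, hn⟩ : ∃ n, Nat.card H = 2 ^ n := by
    refine ⟨_, Nat.eq_prime_pow_of_unique_prime_dvd Nat.card_pos.ne' fun {d} hd hdH => ?_⟩
    by_contra hne
    haveI : Fact d.Prime := ⟨hd⟩
    obtain ⟨g, hg⟩ := exists_prime_orderOf_dvd_card' d hdH
    have := h g (hg ▸ hd.odd_of_ne_two hne)
    rw [this, orderOf_one] at hg
    exact hd.one_lt.ne hg
  haveI := (IsPGroup.of_card hn).isNilpotent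
  infer_instance

section ClassTwo

variable {P : Type u} [Group P] [Finite P]

/-- The automorphisms fixing every involution. -/
def fixInvolutions (P : Type u) [Group P] : Subgroup (MulAut P) where
  carrier := {β | ∀ x : P, x * x = 1 → β x = x}
  one_mem' := fun _ _ => rfl
  mul_mem' := fun {a b} ha hb x hx => by rw [MulAut.mul_apply, hb x hx, ha x hx]
  inv_mem' := fun {a} ha x hx => by
    conv_lhs => rw [← ha x hx]
    rw [MulAut.inv_apply_self]

variable (hsq : ∀ x : P, x * x ∈ Subgroup.center P)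
  (hcomm : ∀ x y : P, x * y * x⁻¹ * y⁻¹ ∈ Subgroup.center P)
  (hinv : ∀ x : P, x * x = 1 → x ∈ Subgroup.center P)

include hsq hcomm in
omit [Finite P] in
theorem commutator_sq (x y : P) : (x * y * x⁻¹ * y⁻¹) * (x * y * x⁻¹ * y⁻¹) = 1 := by
  have hc := Subgroup.mem_center_iff.1 (hcomm x y)
  calc (x * y * x⁻¹ * y⁻¹) * (x * y * x⁻¹ * y⁻¹) = x * (y * x⁻¹ * y⁻¹ * (x * y * x⁻¹ * y⁻¹)) := by group
    _ = x * ((x * y * x⁻¹ * y⁻¹) * (y * x⁻¹ * y⁻¹)) := by rw [hc]
    _ = (x * x) * y * (x * x)⁻¹ * y⁻¹ := by group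
    _ = 1 := by rw [← Subgroup.mem_center_iff.1 (hsq x) y]; group

omit [Finite P] in
theorem sq_mul (x y : P) (hc : y * x * y⁻¹ * x⁻¹ ∈ Subgroup.center P) :
    x * y * (x * y) = (y * x * y⁻¹ * x⁻¹) * ((x * x) * (y * y)) := by
  calc x * y * (x * y) = x * ((y * x * y⁻¹ * x⁻¹) * x * y * y) := by group
    _ = x * (y * x * y⁻¹ * x⁻¹) * x * y * y := by group
    _ = (y * x * y⁻¹ * x⁻¹) * x * x * y * y := by rw [Subgroup.mem_center_iff.1 hc x]
    _ = _ := by group

include hsq hcomm hinv in
/-- The automorphisms fixing the involutions form a solvable group. -/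
theorem isSolvable_fixInvolutions (FT : CfsgLib.OutSolvable.OddOrderStatement.{u}) (hP : IsPGroup 2 P)
    (htrans : ∀ a b : P, a * a = 1 → a ≠ 1 → b * b = 1 → b ≠ 1 → ∃ β : MulAut P, β a = b) :
    Group.IsSolvable (fixInvolutions P) := by
  classical
  haveI : Fact (Nat.Prime 2) := ⟨Nat.prime_two⟩
  -- the elements of order at most four
  let D : Subgroup P :=
    { carrier := {x | x * x * (x * x) = 1}
      one_mem' := by simp
      mul_mem' := fun {x y} (hx : x * x * (x * x) = 1) (hy : y * y * (y * y) = 1) => by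
        show x * y * (x * y) * (x * y * (x * y)) = 1
        rw [sq_mul x y (hcomm y x)]
        have h1 := Subgroup.mem_center_iff.1 (hcomm y x)
        have h2 := Subgroup.mem_center_iff.1 (hsq x)
        have h3 := commutator_sq hsq hcomm y x
        calc (y * x * y⁻¹ * x⁻¹) * ((x * x) * (y * y)) * ((y * x * y⁻¹ * x⁻¹) * ((x * x) * (y * y)))
            = (y * x * y⁻¹ * x⁻¹) * (((x * x) * (y * y)) * (y * x * y⁻¹ * x⁻¹)) * ((x * x) * (y * y)) := by group
          _ = ((y * x * y⁻¹ * x⁻¹) * (y * x * y⁻¹ * x⁻¹)) * (((x * x) * (y * y)) * ((x * x) * (y * y))) := by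
            rw [h1 ((x * x) * (y * y))]; group
          _ = (x * x) * ((y * y) * (x * x)) * (y * y) := by rw [h3, one_mul]; group
          _ = (x * x * (x * x)) * (y * y * (y * y)) := by rw [h2 (y * y)]; group
          _ = 1 := by rw [hx, hy, one_mul]
      inv_mem' := fun {x} (hx : x * x * (x * x) = 1) => by
        show x⁻¹ * x⁻¹ * (x⁻¹ * x⁻¹) = 1
        calc x⁻¹ * x⁻¹ * (x⁻¹ * x⁻¹) = (x * x * (x * x))⁻¹ := by group
          _ = 1 := by rw [hx, inv_one] }
  let O : Subgroup D :=
    { carrier := {x | (x : P) * x = 1}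
      one_mem' := by simp
      mul_mem' := fun {x y} (hx : (x : P) * x = 1) (hy : (y : P) * y = 1) => by
        show ((x * y : D) : P) * ((x * y : D) : P) = 1
        rw [Subgroup.coe_mul]
        calc (x : P) * y * ((x : P) * y) = x * ((y : P) * x) * y := by group
          _ = x * ((x : P) * y) * y := by rw [Subgroup.mem_center_iff.1 (hinv _ hx) (y : P)]
          _ = ((x : P) * x) * ((y : P) * y) := by group
          _ = 1 := by rw [hx, hy, one_mul]
      inv_mem' := fun {x} (hx : (x : P) * x = 1) => by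
        show (x : P)⁻¹ * (x : P)⁻¹ = 1
        rw [← mul_inv_rev, hx, inv_one] }
  have hOc : ∀ x ∈ O, (x : P) ∈ Subgroup.center P := fun x hx => hinv _ hx
  haveI hOn : O.Normal := ⟨fun n hn g => by
    have hgn : g * n * g⁻¹ = n := Subtype.ext (by
      show (g : P) * n * (g : P)⁻¹ = n
      rw [Subgroup.mem_center_iff.1 (hOc n hn) (g : P), mul_inv_cancel_right])
    rw [hgn]; exact hn⟩
  letI : CommGroup (D ⧸ O) :=
    { (inferInstance : Group (D ⧸ O)) with
      mul_comm := fun a b => by
        induction a using QuotientGroup.induction_on with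
        | _ a =>
        induction b using QuotientGroup.induction_on with
        | _ b =>
        rw [← QuotientGroup.mk_mul, ← QuotientGroup.mk_mul, QuotientGroup.eq]
        show ((((a * b)⁻¹ * (b * a) : D)) : P) * (((a * b)⁻¹ * (b * a) : D) : P) = 1
        simp only [Subgroup.coe_mul, Subgroup.coe_inv]
        calc ((a : P) * b)⁻¹ * (b * a) * (((a : P) * b)⁻¹ * (b * a))
            = ((b : P)⁻¹ * (a : P)⁻¹ * (b : P)⁻¹⁻¹ * (a : P)⁻¹⁻¹) * ((b : P)⁻¹ * (a : P)⁻¹ * (b : P)⁻¹⁻¹ * (a : P)⁻¹⁻¹) := by group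
          _ = 1 := commutator_sq hsq hcomm _ _ }
  letI : CommGroup O :=
    { (inferInstance : Group O) with
      mul_comm := fun a b => Subtype.ext (Subtype.ext (Subgroup.mem_center_iff.1 (hOc b b.2) _)) }
  letI : Module (ZMod 2) (Additive (D ⧸ O)) := AddCommGroup.zmodModule fun x => by
    obtain ⟨x, rfl⟩ := Additive.ofMul.surjective x
    induction x using QuotientGroup.induction_on with
    | _ x =>
    rw [two_nsmul, ← ofMul_mul, ← QuotientGroup.mk_mul]
    exact congrArg Additive.ofMul ((QuotientGroup.eq_one_iff (x * x)).2 x.2)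
  letI : Module (ZMod 2) (Additive O) := AddCommGroup.zmodModule fun x => by
    obtain ⟨x, rfl⟩ := Additive.ofMul.surjective x
    rw [two_nsmul, ← ofMul_mul]
    exact congrArg Additive.ofMul (Subtype.ext (Subtype.ext x.2))
  -- the square map
  let sqO : D → O := fun x => ⟨x * x, x.2⟩
  let q : D ⧸ O → O := fun a => Quotient.liftOn' a sqO (by
    intro x y hxy
    rw [QuotientGroup.leftRel_apply] at hxy
    refine Subtype.ext (Subtype.ext ?_)
    show (x : P) * x = (y : P) * y
    have hz : ((x⁻¹ * y : D) : P) ∈ Subgroup.center P := hOc _ hxy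
    calc (x : P) * x = (x : P) * x * (((x⁻¹ * y : D) : P) * ((x⁻¹ * y : D) : P)) := by
          rw [show ((x⁻¹ * y : D) : P) * ((x⁻¹ * y : D) : P) = 1 from hxy, mul_one]
      _ = (x : P) * ((x : P) * ((x⁻¹ * y : D) : P)) * ((x⁻¹ * y : D) : P) := by group
      _ = (x : P) * (((x⁻¹ * y : D) : P) * x) * ((x⁻¹ * y : D) : P) := by
          rw [← Subgroup.mem_center_iff.1 hz (x : P)]
      _ = (y : P) * y := by simp only [Subgroup.coe_mul, Subgroup.coe_inv]; group)
  have hqmk : ∀ x : D, ((q (x : D ⧸ O) : D) : P) = (x : P) * x := fun x => rfl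
  let Q : Additive (D ⧸ O) → Additive O := fun a => Additive.ofMul (q a.toMul)
  have hBadd : ∀ x y y' : Additive (D ⧸ O), Q (x + (y + y')) - Q x - Q (y + y') =
      (Q (x + y) - Q x - Q y) + (Q (x + y') - Q x - Q y') := by
    have key : ∀ x y : D, Q (Additive.ofMul (x : D ⧸ O) + Additive.ofMul (y : D ⧸ O))
        - Q (Additive.ofMul (x : D ⧸ O)) - Q (Additive.ofMul (y : D ⧸ O)) =
        Additive.ofMul (⟨⟨(y : P) * x * (y : P)⁻¹ * (x : P)⁻¹, (y * x * y⁻¹ * x⁻¹ : D).2⟩,
          commutator_sq hsq hcomm (y : P) x⟩ : O) := by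
      intro x y
      rw [sub_eq_iff_eq_add, sub_eq_iff_eq_add]
      refine congrArg Additive.ofMul (Subtype.ext (Subtype.ext ?_))
      show ((x * y : D) : P) * ((x * y : D) : P) = (y : P) * x * (y : P)⁻¹ * (x : P)⁻¹ * ((y : P) * y) * ((x : P) * x)
      rw [Subgroup.coe_mul, sq_mul _ _ (hcomm (y : P) x),
        ← Subgroup.mem_center_iff.1 (hsq (x : P)) ((y : P) * y), ← mul_assoc]
    intro a b b'
    obtain ⟨a, rfl⟩ := Additive.ofMul.surjective a
    obtain ⟨b, rfl⟩ := Additive.ofMul.surjective b
    obtain ⟨b', rfl⟩ := Additive.ofMul.surjective b'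
    induction a using QuotientGroup.induction_on with
    | _ a =>
    induction b using QuotientGroup.induction_on with
    | _ b =>
    induction b' using QuotientGroup.induction_on with
    | _ b' =>
    rw [key a b, key a b',
      show Additive.ofMul (b : D ⧸ O) + Additive.ofMul (b' : D ⧸ O) = Additive.ofMul ((b * b' : D) : D ⧸ O) from rfl,
      key a (b * b')]
    refine congrArg Additive.ofMul (Subtype.ext (Subtype.ext ?_))
    show ((b * b' : D) : P) * a * ((b * b' : D) : P)⁻¹ * (a : P)⁻¹ =
      ((b : P) * a * (b : P)⁻¹ * (a : P)⁻¹) * ((b' : P) * a * (b' : P)⁻¹ * (a : P)⁻¹)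
    rw [Subgroup.coe_mul]
    calc (b : P) * b' * a * ((b : P) * b')⁻¹ * (a : P)⁻¹
        = (b : P) * (((b' : P) * a * (b' : P)⁻¹ * (a : P)⁻¹)) * ((a : P) * (b : P)⁻¹ * (a : P)⁻¹) := by group
      _ = ((b' : P) * a * (b' : P)⁻¹ * (a : P)⁻¹) * (b : P) * ((a : P) * (b : P)⁻¹ * (a : P)⁻¹) := by
          rw [Subgroup.mem_center_iff.1 (hcomm (b' : P) a) (b : P)]
      _ = ((b' : P) * a * (b' : P)⁻¹ * (a : P)⁻¹) * ((b : P) * a * (b : P)⁻¹ * (a : P)⁻¹) := by group
      _ = _ := (Subgroup.mem_center_iff.1 (hcomm (b' : P) a) _).symm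
  let M : QMap (Additive (D ⧸ O)) (Additive O) :=
    { Q := Q
      B := fun x => AddMonoidHom.mk' (fun y => Q (x + y) - Q x - Q y) (hBadd x)
      polar := fun x y => by simp only [AddMonoidHom.mk'_apply]; abel
      aniso := fun x hx => by
        obtain ⟨x, rfl⟩ := Additive.ofMul.surjective x
        induction x using QuotientGroup.induction_on with
        | _ x =>
        have h1 : (x : P) * x = 1 := congrArg (fun w : O => ((w : D) : P)) (ofMul_eq_zero.1 hx)
        exact congrArg Additive.ofMul ((QuotientGroup.eq_one_iff x).2 h1) }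
  -- automorphisms act on everything
  have hDinv : ∀ (β : MulAut P) (x : P), x ∈ D → β x ∈ D := fun β x (hx : x * x * (x * x) = 1) => by
    show β x * β x * (β x * β x) = 1
    rw [← map_mul, ← map_mul, hx, map_one]
  haveI hDchar : D.Characteristic := Subgroup.characteristic_iff_map_le.2 fun φ => by
    rintro _ ⟨x, hx, rfl⟩
    exact hDinv φ x hx
  let act : MulAut P →* MulAut (D ⧸ O) :=
    MonoidHom.mk' (fun β => QuotientGroup.congr O O (MulAut.characteristic D β) (le_antisymm
        (by
          rintro _ ⟨x, hx, rfl⟩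
          show β (x : P) * β (x : P) = 1
          rw [← map_mul, show (x : P) * x = 1 from hx, map_one])
        (fun x hx => ⟨(MulAut.characteristic D β).symm x, by
          show β.symm (x : P) * β.symm (x : P) = 1
          rw [← map_mul, show (x : P) * x = 1 from hx, map_one], (MulAut.characteristic D β).apply_symm_apply x⟩)))
      (fun a b => MulEquiv.ext fun v => by
        induction v using QuotientGroup.induction_on with
        | _ v => rfl)
  have hact : ∀ (β : MulAut P) (x : D), act β (x : D ⧸ O) = ((MulAut.characteristic D β x : D) : D ⧸ O) :=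
    fun _ _ => rfl
  have htr : ∀ e e' : Additive O, e ≠ 0 → e' ≠ 0 →
      Nat.card {v // M.Q v = e} = Nat.card {v // M.Q v = e'} := by
    intro e e' he he'
    obtain ⟨e, rfl⟩ := Additive.ofMul.surjective e
    obtain ⟨e', rfl⟩ := Additive.ofMul.surjective e'
    obtain ⟨β, hβ⟩ := htrans ((e : D) : P) ((e' : D) : P) e.2
      (fun h => he (congrArg Additive.ofMul (Subtype.ext (Subtype.ext h))))
      e'.2 (fun h => he' (congrArg Additive.ofMul (Subtype.ext (Subtype.ext h))))
    have hQβ : ∀ v : D ⧸ O, ((q (act β v) : D) : P) = β ((q v : D) : P) := fun v => by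
      induction v using QuotientGroup.induction_on with
      | _ v => exact (map_mul β (v : P) v).symm
    refine Nat.card_congr (Equiv.subtypeEquiv (MulEquiv.toAdditive (act β)).toEquiv fun v => ?_)
    show Additive.ofMul (q v.toMul) = Additive.ofMul e ↔ Additive.ofMul (q (act β v.toMul)) = Additive.ofMul e'
    simp only [EmbeddingLike.apply_eq_iff_eq]
    constructor
    · intro h
      exact Subtype.ext (Subtype.ext (by rw [hQβ, h, hβ]))
    · intro h
      refine Subtype.ext (Subtype.ext (β.injective ?_))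
      rw [← hQβ, h, hβ]
  set H := fixInvolutions P with hH
  let A : H →* MulAut (D ⧸ O) := act.comp H.subtype
  haveI : Group.IsSolvable A.range := by
    refine M.isSolvable FT htr (fun g => MulEquiv.toAdditive (g : MulAut (D ⧸ O))) (fun _ => rfl)
      (fun _ _ _ => rfl) (fun g hg => Subtype.ext (MulEquiv.ext fun v => ?_)) ?_
    · exact congrArg Additive.toMul (hg (Additive.ofMul v))
    · rintro ⟨_, β, rfl⟩ v
      obtain ⟨v, rfl⟩ := Additive.ofMul.surjective v
      induction v using QuotientGroup.induction_on with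
      | _ v =>
      refine congrArg Additive.ofMul (Subtype.ext (Subtype.ext ?_))
      show (β : MulAut P) (v : P) * (β : MulAut P) (v : P) = (v : P) * v
      rw [← map_mul, β.2 _ v.2]
  have hker : ∀ (β : A.ker) (x : D), ∃ z : P, z * z = 1 ∧ ((β : H) : MulAut P) x = x * z := by
    intro β x
    have h1 : act ((β : H) : MulAut P) = 1 := β.2
    have h := DFunLike.congr_fun h1 (x : D ⧸ O)
    rw [hact, MulAut.one_apply, QuotientGroup.eq] at h
    refine ⟨(((β : H) : MulAut P) x)⁻¹ * x, ?_, ?_⟩
    · exact h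
    · have hw : (((β : H) : MulAut P) x)⁻¹ * x = ((((β : H) : MulAut P) x)⁻¹ * x)⁻¹ :=
        eq_inv_of_mul_eq_one_left h
      rw [hw]
      group
  let R : A.ker →* MulAut D := (MulAut.characteristic D).comp (H.subtype.comp A.ker.subtype)
  haveI : Group.IsSolvable R.range := Group.isSolvable_of_comm fun ⟨_, β, rfl⟩ ⟨_, γ, rfl⟩ => by
    refine Subtype.ext (MulEquiv.ext fun x => Subtype.ext ?_)
    obtain ⟨z, hz, hzx⟩ := hker β x
    obtain ⟨w, hw, hwx⟩ := hker γ x
    show ((β : H) : MulAut P) (((γ : H) : MulAut P) x) = ((γ : H) : MulAut P) (((β : H) : MulAut P) x)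
    rw [hzx, hwx, map_mul, map_mul, hzx, hwx, (β : H).2 _ hw, (γ : H).2 _ hz,
      mul_assoc, mul_assoc, Subgroup.mem_center_iff.1 (hinv _ hw) z]
  haveI : Group.IsSolvable R.ker := isSolvable_of_odd_trivial fun g hg => by
    set β : MulAut P := (((g : A.ker) : H) : MulAut P) with hβ
    have hfix : ∀ x ∈ D, β x = x := fun x hx =>
      congrArg (fun f : MulAut D => ((f ⟨x, hx⟩ : D) : P)) (MonoidHom.mem_ker.1 g.2)
    have hord : (orderOf β).Coprime 2 := by
      simp only [hβ, Subgroup.orderOf_coe]
      exact Nat.coprime_two_right.2 hg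
    have hcen : ∀ (k : ℕ) (y : P), y ∈ Subgroup.center P → y ^ 2 ^ k = 1 → β y = y := by
      intro k
      induction k with
      | zero => intro y _ hy; rw [pow_zero, pow_one] at hy; rw [hy, map_one]
      | succ k ih =>
        intro y hy hk
        have hyy : β (y * y) = y * y := ih _ (mul_mem hy hy) (by rw [← pow_two, ← pow_mul, ← pow_succ']; exact hk)
        refine CfsgLib.PGroups.fixed_of_fixed_diff hP β hord (hfix _ ?_)
        show y⁻¹ * β y * (y⁻¹ * β y) * (y⁻¹ * β y * (y⁻¹ * β y)) = 1
        have hd : y⁻¹ * β y * (y⁻¹ * β y) = 1 := by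
          calc y⁻¹ * β y * (y⁻¹ * β y) = y⁻¹ * (β y * y⁻¹) * β y := by group
            _ = y⁻¹ * (y⁻¹ * β y) * β y := by
              rw [Subgroup.mem_center_iff.1 (inv_mem hy) (β y)]
            _ = (y * y)⁻¹ * β (y * y) := by rw [map_mul]; group
            _ = 1 := by rw [hyy, inv_mul_cancel]
        rw [hd, one_mul]
    have hone : β = 1 := by
      refine MulEquiv.ext fun x => ?_
      rw [MulAut.one_apply]
      obtain ⟨k, hk⟩ := hP (x * x)
      have hxx : β (x * x) = x * x := hcen k _ (hsq x) hk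
      refine CfsgLib.PGroups.fixed_of_fixed_diff hP β hord (hfix _ ?_)
      set u := x⁻¹ * β x with hu
      have h1 : u * x * u = x := by
        apply mul_left_cancel (a := x)
        calc x * (u * x * u) = β x * β x := by rw [hu]; group
          _ = x * x := by rw [← map_mul, hxx]
      have h2 : u * u = u * x * u⁻¹ * x⁻¹ := by
        have h3 : x * u⁻¹ * x⁻¹ = u := by
          calc x * u⁻¹ * x⁻¹ = (u * x * u) * u⁻¹ * x⁻¹ := by rw [h1]
            _ = u := by group
        calc u * u = u * (x * u⁻¹ * x⁻¹) := by rw [h3]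
          _ = u * x * u⁻¹ * x⁻¹ := by group
      show u * u * (u * u) = 1
      rw [h2]
      exact commutator_sq hsq hcomm u x
    exact Subtype.ext (Subtype.ext (Subtype.ext hone))
  haveI : Group.IsSolvable A.ker :=
    Group.isSolvable_of_ker_le_range R.ker.subtype R.rangeRestrict (by
      rw [MonoidHom.ker_rangeRestrict, Subgroup.range_subtype])
  exact Group.isSolvable_of_ker_le_range A.ker.subtype A.rangeRestrict (by
      rw [MonoidHom.ker_rangeRestrict, Subgroup.range_subtype])

end ClassTwo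

end CfsgLib.OutSolvableInv
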