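import Cfsg.Agent.Lib.OutSolvableInv.NormTransitive
import Cfsg.Agent.Lib.OutSolvableInv.Kernel
import Cfsg.Agent.Lib.OutSolvable.Main
import Cfsg.Agent.Lib.Transfer.Critical

/-!
`Out G` is solvable for a simple group whose involutions in a Sylow 2-subgroup commute and are all
conjugate, given the odd order theorem.
-/

set_option autoImplicit false
set_option linter.style.haveILetI false

namespace CfsgLib.OutSolvableInv

universe u

open CfsgLib.OutSolvable
open scoped commutatorElement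

variable {G : Type u} [Group G] [Finite G]

/-- The involutions of `S`, with the identity. -/
def invGroup (S : Subgroup G) (hc : ∀ s ∈ S, ∀ t ∈ S, s * s = 1 → t * t = 1 → s * t = t * s) :
    Subgroup G where
  carrier := {x | x ∈ S ∧ x * x = 1}
  one_mem' := ⟨S.one_mem, one_mul 1⟩
  mul_mem' := fun {x y} hx hy => ⟨S.mul_mem hx.1 hy.1, by
    calc x * y * (x * y) = x * (y * x) * y := by group
      _ = x * (x * y) * y := by rw [hc x hx.1 y hy.1 hx.2 hy.2]
      _ = (x * x) * (y * y) := by group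
      _ = 1 := by rw [hx.2, hy.2, one_mul]⟩
  inv_mem' := fun {x} hx => ⟨S.inv_mem hx.1, by rw [← mul_inv_rev, hx.2, inv_one]⟩

/-- Automorphisms inducing solvable groups. -/
theorem isSolvable_stabAut (FT : OddOrderStatement.{u}) [IsSimpleGroup G] (hG : ¬ IsMulCommutative G)
    (S : Sylow 2 G) (hS1 : (S : Subgroup G) ≠ ⊥)
    (hc : ∀ s ∈ (S : Subgroup G), ∀ t ∈ (S : Subgroup G), s * s = 1 → t * t = 1 → s * t = t * s)
    (hconj : ∀ s ∈ (S : Subgroup G), ∀ t ∈ (S : Subgroup G), s * s = 1 → s ≠ 1 → t * t = 1 → t ≠ 1 →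
      ∃ g : G, g * s * g⁻¹ = t) :
    Group.IsSolvable (stabAut (S : Subgroup G)) := by
  classical
  haveI : Fact (Nat.Prime 2) := ⟨Nat.prime_two⟩
  set E := invGroup (S : Subgroup G) hc with hE
  have hEmem : ∀ {x}, x ∈ E ↔ x ∈ (S : Subgroup G) ∧ x * x = 1 := Iff.rfl
  have hES : E ≤ (S : Subgroup G) := fun x hx => hx.1
  letI : CommGroup E :=
    { (inferInstance : Group E) with
      mul_comm := fun a b => Subtype.ext (hc _ a.2.1 _ b.2.1 a.2.2 b.2.2) }
  set Cg := Subgroup.centralizer (E : Set G) with hCg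
  set D := (S : Subgroup G) ⊓ Cg with hD
  have hED : E ≤ D := le_inf hES fun x hx => Subgroup.mem_centralizer_iff.2 fun y hy =>
    hc y hy.1 x hx.1 hy.2 hx.2
  -- the involutions form a weakly closed subgroup
  have hweak : ∀ g : G, (∀ e ∈ E, g⁻¹ * e * g ∈ (S : Subgroup G)) → ∀ e, e ∈ E ↔ g⁻¹ * e * g ∈ E := by
    intro g hg
    have hsub : E.map (MulAut.conj g⁻¹).toMonoidHom ≤ E := by
      rintro _ ⟨e, he, rfl⟩
      refine ⟨by simpa [MulAut.conj_apply] using hg e he, ?_⟩
      rw [← map_mul, he.2, map_one]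
    have heq := Subgroup.eq_of_le_of_card_ge hsub
      (le_of_eq (Subgroup.card_map_of_injective (MulAut.conj g⁻¹).injective).symm)
    intro e
    constructor
    · intro he
      rw [← heq]
      exact ⟨e, he, by simp [MulAut.conj_apply]⟩
    · intro he
      rw [← heq] at he
      obtain ⟨e', he', he''⟩ := he
      have : g⁻¹ * e' * g = g⁻¹ * e * g := by simpa [MulAut.conj_apply] using he''
      rwa [mul_right_cancel (b := g) this |> mul_left_cancel (a := g⁻¹)] at he'
  have hmemS : ∀ (h : G) {x : G}, x ∈ ((h • S : Sylow 2 G) : Subgroup G) ↔ h⁻¹ * x * h ∈ (S : Subgroup G) := by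
    intro h x
    rw [Sylow.coe_subgroup_smul, Subgroup.mem_pointwise_smul_iff_inv_smul_mem]
    simp [MulAut.smul_def, MulAut.conj_apply, mul_assoc]
  -- transitivity of the normalizer
  set NE := Subgroup.normalizer (E : Set G) with hNE
  have hNof : ∀ g : G, (∀ e ∈ E, g⁻¹ * e * g ∈ (S : Subgroup G)) → g ∈ NE := fun g hg =>
    inv_inv g ▸ inv_mem (Subgroup.mem_normalizer_iff.2 fun e => by
      rw [inv_inv]; exact hweak g hg e)
  have htrans : ∀ a b : G, a ∈ E → a ≠ 1 → b ∈ E → b ≠ 1 → ∃ n ∈ NE, n * a * n⁻¹ = b := by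
    intro a b ha ha1 hb hb1
    obtain ⟨g, hg⟩ := hconj a ha.1 b hb.1 ha.2 ha1 hb.2 hb1
    set B := Subgroup.centralizer ({b} : Set G) with hB
    have hEB : E ≤ B := fun x hx => Subgroup.mem_centralizer_singleton_iff.2
      (hc x hx.1 b hb.1 hx.2 hb.2)
    have hgEB : E.map (MulAut.conj g).toMonoidHom ≤ B := by
      rintro _ ⟨x, hx, rfl⟩
      rw [Subgroup.mem_centralizer_singleton_iff, ← hg]
      show g * x * g⁻¹ * (g * a * g⁻¹) = g * a * g⁻¹ * (g * x * g⁻¹)
      calc g * x * g⁻¹ * (g * a * g⁻¹) = g * (x * a) * g⁻¹ := by group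
        _ = g * (a * x) * g⁻¹ := by rw [hc x hx.1 a ha.1 hx.2 ha.2]
        _ = _ := by group
    have hE2 : IsPGroup 2 E := S.2.to_le hES
    obtain ⟨P, hP⟩ := IsPGroup.exists_le_sylow (G := B) ((hE2.comap_of_injective B.subtype B.subtype_injective :
      IsPGroup 2 (E.subgroupOf B)))
    obtain ⟨P', hP'⟩ := IsPGroup.exists_le_sylow (G := B)
      (((hE2.map (MulAut.conj g).toMonoidHom).comap_of_injective B.subtype B.subtype_injective :
      IsPGroup 2 ((E.map (MulAut.conj g).toMonoidHom).subgroupOf B)))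
    obtain ⟨c, hc'⟩ := MulAction.exists_smul_eq B P' P
    obtain ⟨R, hR⟩ := IsPGroup.exists_le_sylow (P.2.map B.subtype)
    obtain ⟨h, rfl⟩ := MulAction.exists_smul_eq G S R
    have hhN : h ∈ NE := hNof h fun e he => (hmemS h).1 (hR ⟨⟨e, hEB he⟩, hP he, rfl⟩)
    have hcg : (c : G) * g ∈ NE := by
      suffices h⁻¹ * ((c : G) * g) ∈ NE by
        have := NE.mul_mem hhN this
        rwa [← mul_assoc, mul_inv_cancel, one_mul] at this
      rw [show h⁻¹ * ((c : G) * g) = ((((c : G) * g)⁻¹ * h))⁻¹ by group]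
      refine inv_mem (hNof _ fun e he => ?_)
      have h1 : (⟨g * e * g⁻¹, hgEB ⟨e, he, rfl⟩⟩ : B) ∈ (P' : Subgroup B) := hP' ⟨e, he, rfl⟩
      have h2 : c * (⟨g * e * g⁻¹, hgEB ⟨e, he, rfl⟩⟩ : B) * c⁻¹ ∈ (P : Subgroup B) := by
        rw [← hc', Sylow.coe_subgroup_smul]
        exact ⟨_, h1, rfl⟩
      have h3 := (hmemS h).1 (hR ⟨_, h2, rfl⟩)
      convert h3 using 1
      show _ = h⁻¹ * ((c : G) * (g * e * g⁻¹) * (c : G)⁻¹) * h
      group
    refine ⟨(c : G) * g, hcg, ?_⟩
    calc (c : G) * g * a * ((c : G) * g)⁻¹ = (c : G) * (g * a * g⁻¹) * (c : G)⁻¹ := by group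
      _ = b := by rw [hg, Subgroup.mem_centralizer_singleton_iff.1 c.2, mul_inv_cancel_right]
  -- the two actions on `E`
  have hEα : ∀ α : stabAut (S : Subgroup G), (α : MulAut G) ∈ stabAut E := fun α x => by
    rw [hEmem, hEmem, show _ ↔ _ from α.2 x, ← map_mul, EmbeddingLike.map_eq_one_iff]
  let Φ : stabAut (S : Subgroup G) →* MulAut E :=
    (resAut E).comp ((stabAut (S : Subgroup G)).subtype.codRestrict _ hEα)
  let ψ : NE →* MulAut E :=
    (resAut E).comp ((MulAut.conj.comp NE.subtype).codRestrict _ fun n => fun x => ((Subgroup.mem_normalizer_iff.1 n.2) x).symm)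
  have hΦ : ∀ α (x : E), ((Φ α x : E) : G) = (α : MulAut G) x := fun _ _ => rfl
  have hψ : ∀ (n : NE) (x : E), ((ψ n x : E) : G) = (n : G) * x * (n : G)⁻¹ := fun _ _ => rfl
  have hΦψ : ∀ (α : stabAut (S : Subgroup G)) (n : NE), ∃ m : NE, (m : G) = (α : MulAut G) n ∧
      Φ α * ψ n * (Φ α)⁻¹ = ψ m := by
    intro α n
    have hm : (α : MulAut G) n ∈ NE := by
      refine Subgroup.mem_normalizer_iff.2 fun v => ?_
      obtain ⟨v, rfl⟩ := (α : MulAut G).surjective v
      rw [← map_inv (α : MulAut G), ← map_mul (α : MulAut G), ← map_mul (α : MulAut G),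
        show _ ↔ _ from hEα α v, show _ ↔ _ from hEα α _]
      exact Subgroup.mem_normalizer_iff.1 n.2 v
    refine ⟨⟨_, hm⟩, rfl, MulEquiv.ext fun x => Subtype.ext ?_⟩
    obtain ⟨y, rfl⟩ := (Φ α).surjective x
    rw [MulAut.mul_apply, MulAut.mul_apply, MulAut.inv_apply_self, hψ, hΦ, hψ, hΦ]
    simp only [map_mul, map_inv]
  set X := ψ.range with hX
  set Y := Subgroup.normalizer (X : Set (MulAut E)) with hY
  have hΦY : Φ.range ≤ Y := by
    rintro _ ⟨α, rfl⟩
    refine Subgroup.mem_normalizer_iff.2 fun v => ?_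
    constructor
    · rintro ⟨n, rfl⟩
      obtain ⟨m, -, hm⟩ := hΦψ α n
      exact ⟨m, hm.symm⟩
    · rintro ⟨m, hm⟩
      obtain ⟨n, -, hn⟩ := hΦψ α⁻¹ m
      exact ⟨n, by rw [← hn, hm, map_inv]; group⟩
  haveI hXn : (X.subgroupOf Y).Normal := Subgroup.normal_in_normalizer
  haveI : Group.IsSolvable (Y ⧸ X.subgroupOf Y) :=
    isSolvable_quotient_of_transitive Y.subtype Subtype.val_injective
      (fun x => Subtype.ext x.2.2) (X.subgroupOf Y) fun a b ha hb => by
        obtain ⟨n, hn, hnab⟩ := htrans a b a.2 (fun e => ha (Subtype.ext e)) b.2 (fun e => hb (Subtype.ext e))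
        exact ⟨⟨ψ ⟨n, hn⟩, Subgroup.le_normalizer ⟨_, rfl⟩⟩, ⟨_, rfl⟩, Subtype.ext hnab⟩
  -- the intersection with `X` normalizes a Sylow subgroup of `X`
  have hSNE : (S : Subgroup G) ≤ NE := fun s hs => hNof s fun e he =>
    (S : Subgroup G).mul_mem ((S : Subgroup G).mul_mem ((S : Subgroup G).inv_mem hs) he.1) hs
  set T := ((S : Subgroup G).subgroupOf NE).map ψ with hT
  set W := X ⊓ Subgroup.normalizer (T : Set (MulAut E)) with hW
  haveI : Group.IsSolvable W := by
    have hT2 : IsPGroup 2 T := (S.2.comap_subtype : IsPGroup 2 ((S : Subgroup G).subgroupOf NE)).map ψ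
    have hTW : T ≤ W := le_inf (Subgroup.map_le_range _ _) Subgroup.le_normalizer
    haveI : (T.subgroupOf W).Normal :=
      Subgroup.normal_subgroupOf_of_le_normalizer inf_le_right
    haveI : Group.IsNilpotent (T.subgroupOf W) := (hT2.comap_subtype : IsPGroup 2 (T.subgroupOf W)).isNilpotent
    have hodd : ¬ 2 ∣ T.relIndex W := fun hd => by
      have h1 : T.relIndex W ∣ T.relIndex X := Dvd.intro _ (Subgroup.relIndex_mul_relIndex T W X hTW inf_le_left)
      have h2 : T.relIndex X ∣ ((S : Subgroup G).subgroupOf NE).index := by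
        have h3 : T.relIndex X = (((S : Subgroup G).subgroupOf NE).map ψ.rangeRestrict).index := by
          rw [hT, Subgroup.relIndex]
          congr 1
          ext ⟨v, hv⟩
          simp only [Subgroup.mem_subgroupOf, Subgroup.mem_map]
          constructor
          · rintro ⟨s, hs, h⟩; exact ⟨s, hs, Subtype.ext h⟩
          · rintro ⟨s, hs, h⟩; exact ⟨s, hs, congrArg Subtype.val h⟩
        rw [h3]
        exact Subgroup.index_map_dvd _ ψ.rangeRestrict_surjective
      exact S.not_dvd_index ((hd.trans h1).trans (h2.trans (Subgroup.relIndex_dvd_index_of_le hSNE)))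
    haveI : Group.IsSolvable (W ⧸ T.subgroupOf W) := FT _ (by
      rw [← Subgroup.index, ← Nat.not_even_iff_odd, even_iff_two_dvd]; exact hodd)
    exact (Group.isSolvable_iff_subgroup_quotient (T.subgroupOf W)).2 ⟨inferInstance, inferInstance⟩
  haveI : Group.IsSolvable Φ.range := by
    set f := (QuotientGroup.mk' (X.subgroupOf Y)).comp (Subgroup.inclusion hΦY) with hf
    have hker : ∀ k : f.ker, ((k : Φ.range) : MulAut E) ∈ W := by
      rintro ⟨⟨_, α, rfl⟩, hk⟩
      refine ⟨(show (Subgroup.inclusion hΦY ⟨Φ α, α, rfl⟩) ∈ X.subgroupOf Y from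
        (QuotientGroup.eq_one_iff _).1 hk), ?_⟩
      refine Subgroup.mem_normalizer_iff.2 fun v => ?_
      have key : ∀ β : stabAut (S : Subgroup G), ∀ v ∈ T, Φ β * v * (Φ β)⁻¹ ∈ T := by
        rintro β _ ⟨s, hs, rfl⟩
        obtain ⟨m, hm, hm'⟩ := hΦψ β s
        exact ⟨m, show (m : G) ∈ (S : Subgroup G) from hm ▸ (β.2 _).2 hs, hm'.symm⟩
      refine ⟨key α v, fun h => ?_⟩
      have := key α⁻¹ _ h
      rw [map_inv] at this
      convert this using 1
      group
    haveI : Group.IsSolvable f.ker := Group.isSolvable_of_isSolvable_injective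
      (f := MonoidHom.codRestrict (Φ.range.subtype.comp f.ker.subtype) W hker)
      fun a b h => Subtype.ext (Subtype.ext (congrArg (fun y : W => (y : MulAut E)) h))
    exact Group.isSolvable_of_ker_le_range f.ker.subtype f (by rw [Subgroup.range_subtype])
  -- the kernel acts on the critical subgroup of `D`
  have hD2 : IsPGroup 2 D := S.2.to_le inf_le_left
  obtain ⟨C, hCchar, hC1, hC2, hC3⟩ := CfsgLib.Transfer.exists_critical hD2
  haveI := hCchar
  have hEC : ∀ x : D, (x : G) ∈ E → x ∈ C ∧ ∀ y : D, y * x = x * y := by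
    intro x hx
    have hcen : ∀ y : D, y * x = x * y := fun y =>
      Subtype.ext ((Subgroup.mem_centralizer_iff.1 y.2.2 _ hx).symm)
    exact ⟨hC3 (Subgroup.mem_centralizer_iff.2 fun y _ => hcen y), hcen⟩
  have hinvE : ∀ x : D, x * x = 1 → (x : G) ∈ E := fun x hx =>
    ⟨x.2.1, congrArg Subtype.val hx⟩
  have hCsq : ∀ x : C, x * x ∈ Subgroup.center C := fun x => Subgroup.mem_center_iff.2 fun y => by
    have h1 : x ^ 2 ∈ frattini C := CfsgLib.PGroups.pow_mem_frattini (hD2.to_subgroup C) x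
    have h2 := Subgroup.mem_centralizer_iff.1 (hC1 ⟨_, h1, rfl⟩) (y : D) y.2
    exact Subtype.ext (by rw [← pow_two]; exact h2)
  have hCcomm : ∀ x y : C, x * y * x⁻¹ * y⁻¹ ∈ Subgroup.center C := fun x y =>
    Subgroup.mem_center_iff.2 fun z => by
      have h1 : (⁅(x : D), (y : D)⁆ : D) ∈ C ⊓ Subgroup.centralizer (C : Set D) :=
        hC2 (Subgroup.commutator_mem_commutator x.2 (Subgroup.mem_top _))
      exact Subtype.ext (Subgroup.mem_centralizer_iff.1 h1.2 (z : D) z.2)
  have hCinv : ∀ x : C, x * x = 1 → x ∈ Subgroup.center C := fun x hx =>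
    Subgroup.mem_center_iff.2 fun y => Subtype.ext
      ((hEC x (hinvE x (congrArg Subtype.val hx))).2 y)
  -- transitivity on the critical subgroup
  have hsylD : ∀ n ∈ NE, ∃ c ∈ Cg, ∀ d : G, d ∈ D ↔ (c * n) * d * (c * n)⁻¹ ∈ D := by
    intro n hn
    have hCgn : ∀ x ∈ Cg, ∀ m ∈ NE, m * x * m⁻¹ ∈ Cg := fun x hx m hm =>
      Subgroup.mem_centralizer_iff.2 fun e he => by
        have h1 := Subgroup.mem_centralizer_iff.1 hx _ ((Subgroup.mem_normalizer_iff.1 (inv_mem hm) e).1 he)
        rw [inv_inv] at h1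
        calc e * (m * x * m⁻¹) = m * (m⁻¹ * e * m * x) * m⁻¹ := by group
          _ = m * (x * (m⁻¹ * e * m)) * m⁻¹ := by rw [h1]
          _ = m * x * m⁻¹ * e := by group
    obtain ⟨P0, hP0⟩ := IsPGroup.exists_le_sylow (G := Cg) ((hD2.comap_of_injective Cg.subtype Cg.subtype_injective :
      IsPGroup 2 (D.subgroupOf Cg)))
    have hP0eq : (P0 : Subgroup Cg) = D.subgroupOf Cg := by
      obtain ⟨R, hR⟩ := IsPGroup.exists_le_sylow (P0.2.map Cg.subtype)
      obtain ⟨g, rfl⟩ := MulAction.exists_smul_eq G S R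
      have hgN : g ∈ NE := hNof g fun e he =>
        (hmemS g).1 (hR ⟨⟨e, (hED he).2⟩, hP0 (show e ∈ D from hED he), rfl⟩)
      refine (Subgroup.eq_of_le_of_card_ge hP0 ?_).symm
      refine Nat.card_le_card_of_injective
        (fun x : (P0 : Subgroup Cg) => (⟨⟨g⁻¹ * ((x : Cg) : G) * g, ?_⟩, ?_⟩ : D.subgroupOf Cg)) ?_
      · simpa using hCgn _ (x : Cg).2 _ (inv_mem hgN)
      · exact ⟨(hmemS g).1 (hR ⟨(x : Cg), x.2, rfl⟩), by simpa using hCgn _ (x : Cg).2 _ (inv_mem hgN)⟩
      · intro a b h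
        have h1 : g⁻¹ * ((a : Cg) : G) * g = g⁻¹ * ((b : Cg) : G) * g :=
          congrArg (fun w : D.subgroupOf Cg => ((w : Cg) : G)) h
        exact Subtype.ext (Subtype.ext (mul_left_cancel (mul_right_cancel h1)))
    have hDn : IsPGroup 2 ((D.map (MulAut.conj n).toMonoidHom).subgroupOf Cg) :=
      (hD2.map _).comap_of_injective Cg.subtype Cg.subtype_injective
    obtain ⟨P1, hP1⟩ := hDn.exists_le_sylow
    obtain ⟨c, hc'⟩ := MulAction.exists_smul_eq Cg P1 P0
    refine ⟨c, c.2, ?_⟩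
    have hsub : D.map (MulAut.conj ((c : G) * n)).toMonoidHom ≤ D := by
      rintro _ ⟨d, hd, rfl⟩
      have h1 : (⟨n * d * n⁻¹, hCgn d hd.2 n hn⟩ : Cg) ∈ (P1 : Subgroup Cg) := hP1 ⟨d, hd, rfl⟩
      have h2 : c * (⟨n * d * n⁻¹, hCgn d hd.2 n hn⟩ : Cg) * c⁻¹ ∈ (P0 : Subgroup Cg) := by
        rw [← hc', Sylow.coe_subgroup_smul]
        exact ⟨_, h1, rfl⟩
      rw [hP0eq] at h2
      have h3 : (c : G) * (n * d * n⁻¹) * (c : G)⁻¹ ∈ D := h2
      convert h3 using 1
      show (c : G) * n * d * ((c : G) * n)⁻¹ = _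
      group
    have heq := Subgroup.eq_of_le_of_card_ge hsub
      (le_of_eq (Subgroup.card_map_of_injective (MulAut.conj ((c : G) * n)).injective).symm)
    intro d
    refine ⟨fun hd => hsub ⟨d, hd, rfl⟩, fun hd => ?_⟩
    rw [← heq] at hd
    obtain ⟨d', hd', he⟩ := hd
    have : (c : G) * n * d' * ((c : G) * n)⁻¹ = (c : G) * n * d * ((c : G) * n)⁻¹ := he
    rwa [← mul_left_cancel (mul_right_cancel this)]
  have hCtrans : ∀ a b : C, a * a = 1 → a ≠ 1 → b * b = 1 → b ≠ 1 → ∃ β : MulAut C, β a = b := by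
    intro a b ha ha1 hb hb1
    have haE := hinvE a (congrArg Subtype.val ha)
    have hbE := hinvE b (congrArg Subtype.val hb)
    obtain ⟨n, hn, hnab⟩ := htrans _ _ haE (fun e => ha1 (Subtype.ext (Subtype.ext e))) hbE
      (fun e => hb1 (Subtype.ext (Subtype.ext e)))
    obtain ⟨c, hc', hcn⟩ := hsylD n hn
    let β : MulAut D :=
      { toFun := fun d => ⟨c * n * d * (c * n)⁻¹, (hcn d).1 d.2⟩
        invFun := fun d => ⟨(c * n)⁻¹ * d * (c * n), (hcn _).2 (by
          rw [show c * n * ((c * n)⁻¹ * (d : G) * (c * n)) * (c * n)⁻¹ = d by group]; exact d.2)⟩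
        left_inv := fun d => Subtype.ext (by
          show (c * n)⁻¹ * (c * n * (d : G) * (c * n)⁻¹) * (c * n) = d; group)
        right_inv := fun d => Subtype.ext (by
          show c * n * ((c * n)⁻¹ * (d : G) * (c * n)) * (c * n)⁻¹ = d; group)
        map_mul' := fun x y => Subtype.ext (by
          show c * n * ((x : G) * y) * (c * n)⁻¹ = (c * n * x * (c * n)⁻¹) * (c * n * y * (c * n)⁻¹); group) }
    refine ⟨MulAut.characteristic C β, Subtype.ext (Subtype.ext ?_)⟩
    show c * n * ((a : D) : G) * (c * n)⁻¹ = ((b : D) : G)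
    calc c * n * ((a : D) : G) * (c * n)⁻¹ = c * (n * ((a : D) : G) * n⁻¹) * c⁻¹ := by group
      _ = _ := by rw [hnab, ← Subgroup.mem_centralizer_iff.1 hc' _ hbE, mul_inv_cancel_right]
  haveI := isSolvable_fixInvolutions hCsq hCcomm hCinv FT (hD2.to_subgroup C) hCtrans
  set K := Φ.ker with hK
  have hKfix : ∀ (k : K) (x : G), x ∈ E → ((k : stabAut (S : Subgroup G)) : MulAut G) x = x := fun k x hx =>
    congrArg (fun f : MulAut E => ((f ⟨x, hx⟩ : E) : G)) k.2
  have hKD : ∀ k : K, ((k : stabAut (S : Subgroup G)) : MulAut G) ∈ stabAut D := by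
    have key : ∀ k : K, ∀ x ∈ D, ((k : stabAut (S : Subgroup G)) : MulAut G) x ∈ D := fun k x hx =>
      ⟨((k : stabAut (S : Subgroup G)).2 x).2 hx.1, Subgroup.mem_centralizer_iff.2 fun e he => by
        rw [← hKfix k e he, ← map_mul, ← map_mul, Subgroup.mem_centralizer_iff.1 hx.2 e he]⟩
    refine fun k x => ⟨fun h => ?_, key k x⟩
    have := key k⁻¹ _ h
    simpa using this
  let RD : K →* MulAut D :=
    (resAut D).comp (((stabAut (S : Subgroup G)).subtype.comp K.subtype).codRestrict _ hKD)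
  let RC : K →* fixInvolutions C :=
    ((MulAut.characteristic C).comp RD).codRestrict _ fun k x hx =>
      Subtype.ext (Subtype.ext (hKfix k _ (hinvE x (congrArg Subtype.val hx))))
  haveI : Group.IsSolvable RC.ker := by
    let g : RC.ker →* MulAut (S : Subgroup G) :=
      (resAut (S : Subgroup G)).comp (K.subtype.comp RC.ker.subtype)
    haveI : Group.IsSolvable g.ker := by
      haveI := isSolvable_fixAut FT hG S hS1
      have hfix : ∀ k : g.ker, ((((k : RC.ker) : K) : stabAut (S : Subgroup G)) : MulAut G) ∈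
          fixAut (S : Subgroup G) := fun k s hs =>
        congrArg (fun f : MulAut (S : Subgroup G) => ((f ⟨s, hs⟩ : (S : Subgroup G)) : G)) (MonoidHom.mem_ker.1 k.2)
      exact Group.isSolvable_of_isSolvable_injective
        (f := MonoidHom.codRestrict
          ((stabAut (S : Subgroup G)).subtype.comp (K.subtype.comp (RC.ker.subtype.comp g.ker.subtype))) _ hfix)
        (fun a b e => Subtype.ext (Subtype.ext (Subtype.ext (Subtype.ext
          (congrArg (fun y : fixAut (S : Subgroup G) => (y : MulAut G)) e)))))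
    haveI : Group.IsSolvable g.range := isSolvable_of_odd_trivial fun r hr => by
      obtain ⟨k, hk⟩ := r.2
      have hco : (orderOf (r : MulAut (S : Subgroup G))).Coprime 2 := by
        rw [Subgroup.orderOf_coe]; exact Nat.coprime_two_right.2 hr
      -- fixes the critical subgroup, hence all of `D`
      set β := RD (k : K) with hβ
      have hinj : ∀ n : ℕ, g (k ^ n) = 1 → β ^ n = 1 := fun n hn => MulEquiv.ext fun x => by
        apply Subtype.ext
        rw [hβ, ← map_pow, MulAut.one_apply]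
        exact congrArg (fun f : MulAut (S : Subgroup G) => ((f ⟨x, x.2.1⟩ : (S : Subgroup G)) : G)) hn
      have hβo : (orderOf β).Coprime 2 := by
        refine Nat.Coprime.coprime_dvd_left (orderOf_dvd_of_pow_eq_one (hinj _ ?_)) hco
        rw [map_pow, hk, pow_orderOf_eq_one]
      have hβ1 : β = 1 := by
        refine CfsgLib.PGroups.eq_one_of_fixed_centralizer_le hD2 C hC3 β hβo fun x hx => ?_
        exact congrArg (fun f : fixInvolutions C => (((f : MulAut C) ⟨x, hx⟩ : C) : D)) k.2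
      have hfixD : ∀ x : (S : Subgroup G), (x : G) ∈ D → (r : MulAut (S : Subgroup G)) x = x := fun x hx => by
        rw [← hk]
        exact Subtype.ext (congrArg (fun f : MulAut D => ((f ⟨x, hx⟩ : D) : G)) hβ1)
      refine Subtype.ext ?_
      haveI : (D.subgroupOf (S : Subgroup G)).Normal :=
        Subgroup.normal_subgroupOf_of_le_normalizer (fun s hs => Subgroup.mem_normalizer_iff.2 fun x => by
          have hs' := hSNE hs
          have key : ∀ s ∈ (S : Subgroup G), ∀ x ∈ D, s * x * s⁻¹ ∈ D := fun s hs x hx =>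
            ⟨(S : Subgroup G).mul_mem ((S : Subgroup G).mul_mem hs hx.1) ((S : Subgroup G).inv_mem hs),
              Subgroup.mem_centralizer_iff.2 fun e he => by
                have h1 := Subgroup.mem_centralizer_iff.1 hx.2 _
                  ((Subgroup.mem_normalizer_iff.1 (inv_mem (hSNE hs)) e).1 he)
                rw [inv_inv] at h1
                calc e * (s * x * s⁻¹) = s * (s⁻¹ * e * s * x) * s⁻¹ := by group
                  _ = s * (x * (s⁻¹ * e * s)) * s⁻¹ := by rw [h1]
                  _ = s * x * s⁻¹ * e := by group⟩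
          refine ⟨key s hs x, fun h => ?_⟩
          simpa [mul_assoc] using key s⁻¹ ((S : Subgroup G).inv_mem hs) _ h)
      exact CfsgLib.PGroups.eq_one_of_fixed_centralizer_le S.2 (D.subgroupOf (S : Subgroup G))
        (fun x hx => ⟨x.2, Subgroup.mem_centralizer_iff.2 fun e he =>
          congrArg Subtype.val (Subgroup.mem_centralizer_iff.1 hx ⟨e, hES he⟩ (hED he))⟩)
        _ hco hfixD
    exact Group.isSolvable_of_ker_le_range g.ker.subtype g.rangeRestrict (by
      rw [MonoidHom.ker_rangeRestrict, Subgroup.range_subtype])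
  haveI : Group.IsSolvable K :=
    Group.isSolvable_of_ker_le_range RC.ker.subtype RC (by rw [Subgroup.range_subtype])
  exact Group.isSolvable_of_ker_le_range K.subtype Φ.rangeRestrict (by
    rw [MonoidHom.ker_rangeRestrict, Subgroup.range_subtype])

end CfsgLib.OutSolvableInv
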