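import Cfsg.Agent.Lib.Zsigmondy.Basic
import Cfsg.Agent.Lib.NormalComplements.AutCount
import Cfsg.Agent.Lib.CharTheory.Burnside
import Mathlib.RingTheory.LittleWedderburn
import Mathlib.RingTheory.IntegralDomain

/-!
The quotient by a normal subgroup transitive on the involutions of an elementary abelian 2-group is
solvable.
-/

set_option autoImplicit false
set_option linter.style.haveILetI false

namespace CfsgLib.OutSolvableInv

universe u v

section General

/-- The order of the acting cyclic group divides a set on which it acts freely. -/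
theorem dvd_card_of_free {G α : Type*} [Group G] [Finite G] [Finite α] [MulAction G α]
    (h : ∀ g : G, g ≠ 1 → ∀ a : α, g • a ≠ a) : Nat.card G ∣ Nat.card α := by
  classical
  haveI := Fintype.ofFinite α
  haveI := Fintype.ofFinite G
  rw [Nat.card_congr (MulAction.selfEquivSigmaOrbitsQuotientStabilizer G α), Nat.card_sigma]
  refine Finset.dvd_sum fun ω _ => ?_
  have hb : MulAction.stabilizer G ω.out = ⊥ := (Subgroup.eq_bot_iff_forall _).2 fun g hg => by
    by_contra hg1
    exact h g hg1 _ hg
  rw [hb]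
  exact dvd_of_eq (by rw [← Subgroup.index, Subgroup.index_bot])

variable {E : Type*} [CommGroup E] [Finite E]

/-- The elements fixed by an automorphism. -/
def fix (α : MulAut E) : Subgroup E := MonoidHom.eqLocus α.toMonoidHom (MonoidHom.id E)

omit [Finite E] in
theorem mem_fix {α : MulAut E} {x : E} : x ∈ fix α ↔ α x = x := Iff.rfl

omit [Finite E] in
theorem fix_invariant {α β : MulAut E} (h : Commute α β) {x : E} (hx : x ∈ fix α) : β x ∈ fix α := by
  show α (β x) = β x
  rw [← MulAut.mul_apply, h.eq, MulAut.mul_apply, mem_fix.1 hx]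

omit [Finite E] in
theorem fix_pow {α : MulAut E} {x : E} (h : α x = x) (i : ℕ) : (α ^ i) x = x := by
  induction i with
  | zero => rfl
  | succ i ih => rw [pow_succ, MulAut.mul_apply, h, ih]

/-- An automorphism of prime order moves an invariant subgroup freely outside its fixed points. -/
theorem dvd_card_sub_fix {s : ℕ} [Fact s.Prime] (α : MulAut E) (hα : orderOf α = s)
    (W : Subgroup E) (hW : ∀ x ∈ W, α x ∈ W) :
    s ∣ Nat.card W - Nat.card (W ⊓ fix α : Subgroup E) := by
  classical
  let Z := Subgroup.zpowers α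
  have hpow : ∀ (g : Z), ∀ x ∈ W, (g : MulAut E) x ∈ W := by
    rintro ⟨g, hg⟩ x hx
    obtain ⟨i, -, hi⟩ := Finset.mem_image.1 (mem_zpowers_iff_mem_range_orderOf.1 hg)
    show g x ∈ W
    rw [← hi]
    clear hi
    induction i with
    | zero => exact hx
    | succ i ih => rw [pow_succ', MulAut.mul_apply]; exact hW _ ih
  let S := {x : E // x ∈ W ∧ α x ≠ x}
  have hgα : ∀ g : Z, Commute α (g : MulAut E) := fun g => by
    obtain ⟨i, hi⟩ := Subgroup.mem_zpowers_iff.1 g.2
    rw [← hi]
    exact (Commute.refl α).zpow_right i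
  letI : MulAction Z S :=
    { smul := fun g x => ⟨(g : MulAut E) x.1, hpow g _ x.2.1, fun h => x.2.2 ((g : MulAut E).injective (by
        rw [← MulAut.mul_apply, ← (hgα g).eq, MulAut.mul_apply, h]))⟩
      one_smul := fun x => Subtype.ext rfl
      mul_smul := fun g g' x => Subtype.ext rfl }
  have h1 : Nat.card Z ∣ Nat.card S := by
    refine dvd_card_of_free fun g hg x hgx => x.2.2 ?_
    have hgx' : (g : MulAut E) x.1 = x.1 := congrArg Subtype.val hgx
    have ho : orderOf (g : MulAut E) = s := by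
      have hd : orderOf (g : MulAut E) ∣ s := by
        rw [Subgroup.orderOf_coe]
        exact (orderOf_dvd_natCard g).trans (by rw [Nat.card_zpowers, hα])
      exact ((Nat.dvd_prime Fact.out).1 hd).resolve_left fun h => hg (Subtype.ext (orderOf_eq_one_iff.1 h))
    have hle : Subgroup.zpowers (g : MulAut E) = Z :=
      Subgroup.eq_of_le_of_card_ge (Subgroup.zpowers_le.2 g.2)
        (by rw [Nat.card_zpowers, Nat.card_zpowers, ho, hα])
    have hmem : α ∈ Subgroup.zpowers (g : MulAut E) := hle.symm ▸ Subgroup.mem_zpowers α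
    rw [mem_zpowers_iff_mem_range_orderOf] at hmem
    obtain ⟨i, -, hi⟩ := Finset.mem_image.1 hmem
    have h5 := fix_pow hgx' i
    rwa [hi] at h5
  rw [Nat.card_zpowers, hα] at h1
  refine h1.trans (dvd_of_eq ?_)
  have h2 : Nat.card {x : W // (x : E) ∈ fix α} + Nat.card {x : W // ¬ (x : E) ∈ fix α} = Nat.card W := by
    rw [← Nat.card_sum]; exact Nat.card_congr (Equiv.sumCompl _)
  have h3 : Nat.card {x : W // ¬ (x : E) ∈ fix α} = Nat.card S :=
    Nat.card_congr (Equiv.subtypeSubtypeEquivSubtypeInter (fun x => x ∈ W) (fun x => ¬ α x = x))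
  have h4 : Nat.card {x : W // (x : E) ∈ fix α} = Nat.card (W ⊓ fix α : Subgroup E) :=
    Nat.card_congr (Equiv.subtypeSubtypeEquivSubtypeInter (fun x => x ∈ W) (fun x => x ∈ fix α))
  omega

/-- An element leaving only the trivial subgroups invariant has a cyclic centralizer. -/
theorem isCyclic_centralizer_of_irred [Nontrivial E] {Y : Type*} [Group Y] [Finite Y]
    (ι : Y →* MulAut E) (hι : Function.Injective ι) (w : Y)
    (hirr : ∀ W : Subgroup E, (∀ x ∈ W, ι w x ∈ W) → W = ⊥ ∨ W = ⊤) :
    IsCyclic (Subgroup.centralizer ({w} : Set Y)) := by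
  let en : MulAut E → AddMonoid.End (Additive E) := fun α => MonoidHom.toAdditive α.toMonoidHom
  set R := Subring.centralizer ({en (ι w)} : Set (AddMonoid.End (Additive E))) with hR
  have hker : ∀ r ∈ R, r ≠ 0 → Function.Injective r := by
    intro r hr hr0
    let W : Subgroup E :=
      { carrier := {x | r (Additive.ofMul x) = 0}
        one_mem' := _root_.map_zero r
        mul_mem' := fun {x y} hx hy => by
          show r (Additive.ofMul (x * y)) = 0
          rw [ofMul_mul, map_add, hx, hy, add_zero]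
        inv_mem' := fun {x} hx => by
          show r (Additive.ofMul x⁻¹) = 0
          rw [ofMul_inv, map_neg, hx, neg_zero] }
    have hinv : ∀ x ∈ W, ι w x ∈ W := fun x (hx : r (Additive.ofMul x) = 0) => by
      show r (en (ι w) (Additive.ofMul x)) = 0
      have h := Subring.mem_centralizer_iff.1 hr _ rfl
      have h2 := congrArg (fun f : AddMonoid.End (Additive E) => f (Additive.ofMul x)) h
      have h3 : r (en (ι w) (Additive.ofMul x)) = en (ι w) (r (Additive.ofMul x)) := h2.symm
      rw [h3, hx, _root_.map_zero]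
    rcases hirr W hinv with h | h
    · intro x y hxy
      have : Additive.toMul (x - y) ∈ W := by
        show r (x - y) = 0
        rw [map_sub, hxy, sub_self]
      rw [h, Subgroup.mem_bot] at this
      exact sub_eq_zero.1 (toMul_eq_one.1 this)
    · exact absurd (AddMonoidHom.ext fun x => show x.toMul ∈ W from h ▸ Subgroup.mem_top _) hr0
  haveI : Finite (AddMonoid.End (Additive E)) :=
    Finite.of_injective (fun f : AddMonoid.End (Additive E) => (f : Additive E → Additive E))
      DFunLike.coe_injective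
  haveI : Nontrivial R := ⟨⟨0, 1, fun h => by
    obtain ⟨x, hx⟩ := exists_ne (0 : Additive E)
    exact hx (DFunLike.congr_fun (congrArg Subtype.val h) x).symm⟩⟩
  haveI : NoZeroDivisors R := ⟨fun {a b} hab => by
    by_contra h
    push Not at h
    refine h.2 (Subtype.ext (AddMonoidHom.ext fun x => hker a a.2 (fun e => h.1 (Subtype.ext e)) ?_))
    exact (DFunLike.congr_fun (congrArg Subtype.val hab) x).trans
      (_root_.map_zero (a : AddMonoid.End (Additive E))).symm⟩
  haveI : IsDomain R := NoZeroDivisors.to_isDomain R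
  have hfield := Finite.isDomain_to_isField R
  letI : CommRing R := { (inferInstance : Ring R) with mul_comm := hfield.mul_comm }
  let f : Subgroup.centralizer ({w} : Set Y) →* R :=
    { toFun := fun c => ⟨en (ι c), Subring.mem_centralizer_iff.2 fun g hg => by
        rw [Set.mem_singleton_iff.1 hg]
        have hc : w * (c : Y) = c * w := Subgroup.mem_centralizer_iff.1 c.2 w rfl
        show en (ι w * ι c) = en (ι c * ι w)
        rw [← map_mul, ← map_mul, hc]⟩
      map_one' := Subtype.ext (by show en (ι 1) = 1; rw [map_one]; rfl)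
      map_mul' := fun a b => Subtype.ext (by
        show en (ι ((a : Y) * b)) = en (ι a) * en (ι b); rw [map_mul]; rfl) }
  refine isCyclic_of_injective_ringHom f fun a b h => Subtype.ext (hι (MulEquiv.ext fun x => ?_))
  exact congrArg Additive.toMul (DFunLike.congr_fun (congrArg Subtype.val h) (Additive.ofMul x))

theorem isSolvable_of_isCyclic {H : Type*} [Group H] [IsCyclic H] : Group.IsSolvable H :=
  Group.isSolvable_of_comm fun a b => by
    letI : CommGroup H := IsCyclic.commGroup
    exact mul_comm a b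

theorem zpowers_eq_of_orderOf_eq {C : Type*} [Group C] [Finite C] [IsCyclic C] {a b : C}
    (h : orderOf a = orderOf b) : Subgroup.zpowers a = Subgroup.zpowers b := by
  classical
  haveI := Fintype.ofFinite C
  have hb : (Finset.univ.filter fun x : C => x ^ orderOf b = 1).card ≤ orderOf b :=
    IsCyclic.card_pow_eq_one_le (orderOf_pos b)
  have key : ∀ c : C, orderOf c = orderOf b →
      (Finset.univ.filter fun x : C => x ∈ Subgroup.zpowers c) =
        Finset.univ.filter fun x : C => x ^ orderOf b = 1 := fun c hc => by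
    refine Finset.eq_of_subset_of_card_le (fun x hx => ?_) (hb.trans (le_of_eq ?_))
    · simp only [Finset.mem_filter, Finset.mem_univ, true_and] at hx ⊢
      obtain ⟨i, rfl⟩ := Subgroup.mem_zpowers_iff.1 hx
      rw [← zpow_natCast, ← zpow_mul, mul_comm, zpow_mul, zpow_natCast, ← hc, pow_orderOf_eq_one, one_zpow]
    · rw [← Fintype.card_subtype, ← Nat.card_eq_fintype_card]
      exact (hc.symm.trans (Nat.card_zpowers c).symm).trans rfl
  ext x
  have := congrArg (fun F : Finset C => x ∈ F) ((key a h).trans (key b rfl).symm)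
  simpa using this

/-- The normalizer of a `q`-subgroup whose centre has an irreducible element of order `q`. -/
theorem isSolvable_normalizer_of_irred [Nontrivial E] {Y : Type*} [Group Y] [Finite Y]
    (ι : Y →* MulAut E) (hι : Function.Injective ι) (P : Subgroup Y) {q : ℕ} [Fact q.Prime]
    {y : Y} (hyP : y ∈ P) (hy : orderOf y = q) (hcen : ∀ x ∈ P, Commute x y)
    (hirr : ∀ W : Subgroup E, (∀ x ∈ W, ι y x ∈ W) → W = ⊥ ∨ W = ⊤) :
    Group.IsSolvable (Subgroup.normalizer (P : Set Y)) := by
  haveI hC := isCyclic_centralizer_of_irred ι hι y hirr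
  set C := Subgroup.centralizer ({y} : Set Y) with hCdef
  have hPC : P ≤ C := fun x hx => Subgroup.mem_centralizer_singleton_iff.2 (hcen x hx).eq
  have hN : Subgroup.normalizer (P : Set Y) ≤ Subgroup.normalizer (Subgroup.zpowers y : Set Y) := by
    intro g hg
    rw [Subgroup.mem_normalizer_iff_map_conj_eq, MonoidHom.map_zpowers]
    have h1 : g * y * g⁻¹ ∈ P := (Subgroup.mem_normalizer_iff.1 hg y).1 hyP
    have hord : orderOf (g * y * g⁻¹) = q := (MulEquiv.orderOf_eq (MulAut.conj g) y).trans hy
    let a : C := ⟨g * y * g⁻¹, hPC h1⟩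
    let b : C := ⟨y, hPC hyP⟩
    have hz : Subgroup.zpowers a = Subgroup.zpowers b :=
      zpowers_eq_of_orderOf_eq (by
        rw [← Subgroup.orderOf_coe, ← Subgroup.orderOf_coe]
        exact hord.trans hy.symm)
    have := congrArg (Subgroup.map C.subtype) hz
    rw [MonoidHom.map_zpowers, MonoidHom.map_zpowers] at this
    exact this
  set N := Subgroup.normalizer (Subgroup.zpowers y : Set Y) with hNdef
  suffices Group.IsSolvable N by
    exact Group.isSolvable_of_isSolvable_injective (f := Subgroup.inclusion hN)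
      (Subgroup.inclusion_injective hN)
  have hker : Group.IsSolvable (Subgroup.zpowers y).normalizerMonoidHom.ker := by
    haveI := isSolvable_of_isCyclic (H := C)
    refine Group.isSolvable_of_isSolvable_injective
      (f := MonoidHom.codRestrict (N.subtype.comp (Subgroup.zpowers y).normalizerMonoidHom.ker.subtype) C
        fun k => ?_) fun a b h => Subtype.ext (Subtype.ext (congrArg (fun z : C => (z : Y)) h))
    have h : (k : N) ∈ (Subgroup.centralizer (Subgroup.zpowers y : Set Y)).subgroupOf N :=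
      (Subgroup.normalizerMonoidHom_ker (H := Subgroup.zpowers y)).le k.2
    exact Subgroup.centralizer_le (by simp) h
  haveI : Group.IsSolvable (MulAut (Subgroup.zpowers y)) := Group.isSolvable_of_comm fun a b => by
    obtain ⟨g, hg⟩ := IsCyclic.exists_generator (α := Subgroup.zpowers y)
    obtain ⟨m, hm⟩ := Subgroup.mem_zpowers_iff.1 (hg (a g))
    obtain ⟨n, hn⟩ := Subgroup.mem_zpowers_iff.1 (hg (b g))
    refine MulEquiv.ext fun x => ?_
    obtain ⟨i, rfl⟩ := Subgroup.mem_zpowers_iff.1 (hg x)
    simp only [MulAut.mul_apply, map_zpow, ← hn, ← hm, ← zpow_mul, mul_comm m n]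
  exact Group.isSolvable_of_ker_le_range (Subgroup.zpowers y).normalizerMonoidHom.ker.subtype
    (Subgroup.zpowers y).normalizerMonoidHom (by rw [Subgroup.range_subtype])

/-- Four commuting sums: fixed vectors of the four cyclic subgroups of an elementary group of
order nine generate everything. -/
theorem mem_of_fixed_le (hexp : ∀ x : E, x * x = 1) {u v : MulAut E} (hu : u * u * u = 1)
    (hv : v * v * v = 1) (huv : Commute u v) (F H : Subgroup E) (huF : ∀ x ∈ F, u x ∈ F)
    (hvF : ∀ x ∈ F, v x ∈ F)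
    (h : ∀ a : MulAut E, a = u ∨ a = v ∨ a = u * v ∨ a = u * v * v → ∀ x ∈ F, a x = x → x ∈ H)
    {x : E} (hx : x ∈ F) : x ∈ H := by
  have hT : ∀ a : MulAut E, a = u ∨ a = v ∨ a = u * v ∨ a = u * v * v → a * a * a = 1 →
      (∀ z ∈ F, a z ∈ F) → ∀ z ∈ F, z * a z * a (a z) ∈ H := by
    intro a ha ha3 haF z hz
    refine h a ha _ (F.mul_mem (F.mul_mem hz (haF z hz)) (haF _ (haF z hz))) ?_
    rw [map_mul, map_mul, show a (a (a z)) = z by
      rw [← MulAut.mul_apply, ← MulAut.mul_apply, ha3, MulAut.one_apply]]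
    ac_rfl
  have huvF : ∀ z ∈ F, (u * v) z ∈ F := fun z hz => huF _ (hvF _ hz)
  have huvvF : ∀ z ∈ F, (u * v * v) z ∈ F := fun z hz => huF _ (hvF _ (hvF _ hz))
  have h3 : ∀ a b : MulAut E, Commute a b → a * a * a = 1 → b * b * b = 1 → a * b * (a * b) * (a * b) = 1 := by
    intro a b hab ha hb
    calc a * b * (a * b) * (a * b) = (a * b) ^ 3 := by simp only [pow_succ, pow_zero, one_mul]
      _ = a ^ 3 * b ^ 3 := hab.mul_pow 3
      _ = 1 := by simp only [pow_succ, pow_zero, one_mul]; rw [ha, hb, mul_one]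
  have c : ∀ z, v (u z) = u (v z) := fun z => by
    rw [← MulAut.mul_apply, ← MulAut.mul_apply, huv.eq]
  have hu' : ∀ z, u (u (u z)) = z := fun z => by
    rw [← MulAut.mul_apply, ← MulAut.mul_apply, hu, MulAut.one_apply]
  have hv' : ∀ z, v (v (v z)) = z := fun z => by
    rw [← MulAut.mul_apply, ← MulAut.mul_apply, hv, MulAut.one_apply]
  have hA := hT u (Or.inl rfl) hu huF x hx
  have hB := hT v (Or.inr (Or.inl rfl)) hv hvF x hx
  have hC := hT (u * v) (Or.inr (Or.inr (Or.inl rfl))) (h3 u v huv hu hv) huvF x hx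
  have hD := hT (u * v * v) (Or.inr (Or.inr (Or.inr rfl))) (by
      have := h3 u (v * v) (huv.mul_right huv) hu (by
        calc v * v * (v * v) * (v * v) = (v * v * v) * (v * v * v) := by group
          _ = 1 := by rw [hv, mul_one])
      rwa [← mul_assoc u v v] at this) huvvF x hx
  have hz : x * u x * u (u x) ∈ F := F.mul_mem (F.mul_mem hx (huF x hx)) (huF _ (huF x hx))
  have hE := hT v (Or.inr (Or.inl rfl)) hv hvF _ hz
  have key : x = (x * u x * u (u x)) * (x * v x * v (v x)) *
      (x * (u * v) x * (u * v) ((u * v) x)) * (x * (u * v * v) x * (u * v * v) ((u * v * v) x)) *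
      ((x * u x * u (u x)) * v (x * u x * u (u x)) * v (v (x * u x * u (u x)))) := by
    have hsq : ∀ a b : E, a * (a * b) = b := fun a b => by rw [← mul_assoc, hexp, one_mul]
    simp only [MulAut.mul_apply, map_mul, c, hv']
    ac_nf
    simp only [hsq, hexp, one_mul, mul_one]
  rw [key]
  exact H.mul_mem (H.mul_mem (H.mul_mem (H.mul_mem hA hB) hC) hD) hE

theorem natCard_subgroup_two_pow (hexp : ∀ x : E, x * x = 1) (W : Subgroup E) :
    ∃ k, Nat.card W = 2 ^ k := by
  haveI : Fact (Nat.Prime 2) := ⟨Nat.prime_two⟩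
  exact IsPGroup.iff_card.1 fun x => ⟨1, Subtype.ext (by
    rw [pow_one, pow_two]; exact hexp x)⟩

end General

section Transitive

variable {E : Type v} [CommGroup E] [Finite E] {Y : Type u} [Group Y] [Finite Y]
  (ι : Y →* MulAut E)

/-- The exponent of the order of a fixed subgroup is less than `n` for a nontrivial element. -/
theorem fix_ne_top (hι : Function.Injective ι) {y : Y} (hy : y ≠ 1) : fix (ι y) ≠ ⊤ := fun h =>
  hy (hι (by
    rw [map_one]
    exact MulEquiv.ext fun x => mem_fix.1 (h ▸ Subgroup.mem_top x)))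

/-- Reduction through the normalizer of a Sylow subgroup of the normal subgroup. -/
theorem isSolvable_quotient_of_normalizer (X : Subgroup Y) [X.Normal] {q : ℕ} [Fact q.Prime]
    (P : Sylow q X)
    (h : Group.IsSolvable (Subgroup.normalizer (((P : Subgroup X).map X.subtype : Subgroup Y) : Set Y))) :
    Group.IsSolvable (Y ⧸ X) := by
  haveI := h
  refine Group.isSolvable_of_surjective (f := (QuotientGroup.mk' X).comp (Subgroup.subtype
    (Subgroup.normalizer (((P : Subgroup X).map X.subtype : Subgroup Y) : Set Y)))) fun a => ?_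
  obtain ⟨y, rfl⟩ := QuotientGroup.mk'_surjective X a
  have : y ∈ Subgroup.normalizer (((P : Subgroup X).map X.subtype : Subgroup Y) : Set Y) ⊔ X := by
    rw [Sylow.normalizer_sup_eq_top P]; trivial
  obtain ⟨n, hn, x, hx, rfl⟩ := Subgroup.mem_sup_of_normal_right.1 this
  exact ⟨⟨n, hn⟩, by
    show QuotientGroup.mk' X n = _
    rw [map_mul, show QuotientGroup.mk' X x = 1 from (QuotientGroup.eq_one_iff _).2 hx, mul_one]⟩

variable (hι : Function.Injective ι) (hexp : ∀ x : E, x * x = 1) (X : Subgroup Y) [X.Normal]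
  (htr : ∀ a b : E, a ≠ 1 → b ≠ 1 → ∃ x ∈ X, ι x a = b)

include htr in
omit [X.Normal] in
theorem sub_one_dvd_card_of_transitive [Nontrivial E] : Nat.card E - 1 ∣ Nat.card X := by
  classical
  obtain ⟨e, he⟩ := exists_ne (1 : E)
  let S := {x : E // x ≠ 1}
  letI : MulAction X S :=
    { smul := fun x a => ⟨ι x a.1, (EmbeddingLike.map_ne_one_iff (f := ι x)).2 a.2⟩
      one_smul := fun a => Subtype.ext (show ι (1 : Y) a.1 = a.1 by rw [map_one]; rfl)
      mul_smul := fun x y a => Subtype.ext (show ι ((x : Y) * y) a.1 = _ by rw [map_mul]; rfl) }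
  haveI : MulAction.IsPretransitive X S := ⟨fun a b => by
    obtain ⟨x, hx, hxa⟩ := htr a.1 b.1 a.2 b.2
    exact ⟨⟨x, hx⟩, Subtype.ext hxa⟩⟩
  have h := MulAction.index_stabilizer_of_transitive X (⟨e, he⟩ : S)
  have hS : Nat.card S = Nat.card E - 1 := by
    haveI := Fintype.ofFinite E
    rw [Nat.card_eq_fintype_card, Nat.card_eq_fintype_card, Fintype.card_subtype_compl,
      Fintype.card_subtype_eq]
  rw [← hS, ← h]
  exact Subgroup.index_dvd_card _

include hι hexp htr in
/-- The case of a primitive prime divisor. -/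
theorem isSolvable_quotient_of_ppd {n q : ℕ} (hn : Nat.card E = 2 ^ n) (hn1 : 1 < n)
    (hq : CfsgLib.Zsigmondy.IsPpd 2 n q) : Group.IsSolvable (Y ⧸ X) := by
  haveI : Fact q.Prime := ⟨hq.1⟩
  haveI : Nontrivial E := Finite.one_lt_card_iff_nontrivial.1 (by rw [hn]; exact Nat.one_lt_two_pow (by omega))
  have hqodd : ¬ q ∣ 2 := CfsgLib.Zsigmondy.IsPpd.coprime_base one_lt_two (by omega) hq
  obtain ⟨P⟩ := (inferInstance : Nonempty (Sylow q X))
  have hP1 : (P : Subgroup X) ≠ ⊥ := P.ne_bot_of_dvd_card
    (hq.2.1.trans (hn ▸ sub_one_dvd_card_of_transitive ι X htr))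
  set P' := (P : Subgroup X).map X.subtype with hP'
  have hP'p : IsPGroup q P' := P.2.map _
  haveI : Nontrivial P' := (Subgroup.nontrivial_iff_ne_bot _).2 (by
    rw [hP', Ne, Subgroup.map_eq_bot_iff_of_injective _ X.subtype_injective]; exact hP1)
  haveI : Nontrivial (Subgroup.center P') := hP'p.center_nontrivial
  obtain ⟨z, hz⟩ := exists_prime_orderOf_dvd_card' (G := Subgroup.center P') q (by
    obtain ⟨i, hi⟩ := IsPGroup.iff_card.1 (hP'p.to_subgroup (Subgroup.center P'))
    rcases i with _ | i
    · have := Finite.one_lt_card (α := Subgroup.center P'); rw [hi] at this; simp at this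
    · exact hi ▸ dvd_pow_self q (Nat.succ_ne_zero i))
  set y : Y := ((z : P') : Y) with hy
  have hyq : orderOf y = q := by rw [hy, Subgroup.orderOf_coe, Subgroup.orderOf_coe, hz]
  have hιy : orderOf (ι y) = q := by rw [orderOf_injective ι hι, hyq]
  -- `y` is fixed point free, hence irreducible
  have hfix : fix (ι y) = ⊥ := by
    obtain ⟨k, hk⟩ := natCard_subgroup_two_pow hexp (fix (ι y))
    have h := dvd_card_sub_fix (ι y) hιy ⊤ fun x _ => Subgroup.mem_top _
    rw [top_inf_eq, Subgroup.card_top, hn, hk] at h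
    have hkn : k ≤ n := (Nat.pow_le_pow_iff_right one_lt_two).1
      (hn ▸ hk ▸ Nat.le_of_dvd Nat.card_pos (Subgroup.card_subgroup_dvd_card _))
    rw [show 2 ^ n - 2 ^ k = 2 ^ k * (2 ^ (n - k) - 1) by
      rw [Nat.mul_sub, mul_one, ← pow_add, Nat.add_sub_cancel' hkn]] at h
    rcases hq.1.dvd_mul.1 h with h' | h'
    · exact absurd (hq.1.dvd_of_dvd_pow h') hqodd
    · have h2 := (CfsgLib.Zsigmondy.IsPpd.dvd_pow_sub_one_iff' one_lt_two (by omega) hq _).1 h'
      rcases Nat.eq_zero_or_pos (n - k) with h0 | h0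
      · exfalso
        refine fix_ne_top ι hι (y := y) (fun e => ?_)
          (Subgroup.eq_top_of_card_eq _ (by rw [hk, hn, show k = n by omega]))
        rw [e, orderOf_one] at hyq
        exact hq.1.one_lt.ne hyq
      · have := Nat.le_of_dvd h0 h2
        rw [show k = 0 by omega, pow_zero] at hk
        exact Subgroup.card_eq_one.1 hk
  refine isSolvable_quotient_of_normalizer X P
    (isSolvable_normalizer_of_irred ι hι P' (z : P').2 hyq (fun x hx => ?_) fun W hW => ?_)
  · exact congrArg Subtype.val (Subgroup.mem_center_iff.1 z.2 ⟨x, hx⟩)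
  · obtain ⟨k, hk⟩ := natCard_subgroup_two_pow hexp W
    have h := dvd_card_sub_fix (ι y) hιy W hW
    rw [hfix, inf_bot_eq, Subgroup.card_bot, hk] at h
    have h2 := (CfsgLib.Zsigmondy.IsPpd.dvd_pow_sub_one_iff' one_lt_two (by omega) hq _).1 h
    rcases Nat.eq_zero_or_pos k with h0 | h0
    · left; rw [h0, pow_zero] at hk; exact Subgroup.card_eq_one.1 hk
    · right
      have hkn : k ≤ n := (Nat.pow_le_pow_iff_right one_lt_two).1
        (hn ▸ hk ▸ Nat.le_of_dvd Nat.card_pos (Subgroup.card_subgroup_dvd_card W))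
      exact Subgroup.eq_top_of_card_eq _ (by rw [hk, hn, show k = n from le_antisymm hkn (Nat.le_of_dvd h0 h2)])

open CfsgLib.NormalComplements.AutCount in
include hexp in
omit [Finite Y] in
/-- The order of the automorphism group of an elementary abelian group of order `2 ^ n`. -/
theorem card_mulAut_dvd_elementary {n : ℕ} (hn : Nat.card E = 2 ^ n) :
    ∃ r a, r ≤ n ∧ Nat.card (MulAut E) ∣ 2 ^ a * ∏ i ∈ Finset.range r, (2 ^ r - 2 ^ i) := by
  haveI : Fact (Nat.Prime 2) := ⟨Nat.prime_two⟩
  obtain ⟨r, hrn, hr⟩ := (Nat.dvd_prime_pow Nat.prime_two).1 (hn ▸ Subgroup.index_dvd_card (frattini E))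
  exact ⟨r, r * (n - r), hrn, card_mulAut_dvd hn hr⟩

open CfsgLib.NormalComplements.AutCount in
/-- The order of the automorphism group of a `q`-group of order `q ^ n`. -/
theorem card_mulAut_dvd_pgroup {G : Type*} [Group G] [Finite G] {q n : ℕ} [Fact q.Prime]
    (hn : Nat.card G = q ^ n) :
    ∃ r a, r ≤ n ∧ Nat.card (MulAut G) ∣ q ^ a * ∏ i ∈ Finset.range r, (q ^ r - q ^ i) := by
  obtain ⟨r, hrn, hr⟩ := (Nat.dvd_prime_pow (Fact.out : q.Prime)).1 (hn ▸ Subgroup.index_dvd_card (frattini G))
  exact ⟨r, r * (n - r), hrn, card_mulAut_dvd hn hr⟩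

include hι in
/-- An element of prime order `s` normalizing a subgroup whose automorphism group has order prime
to `s` centralizes it. -/
theorem commute_of_normalizer {s : ℕ} [Fact s.Prime] (P : Subgroup Y) {z : Y} (hz : orderOf z = s)
    (hzP : z ∈ Subgroup.normalizer (P : Set Y)) (haut : ¬ s ∣ Nat.card (MulAut P)) {x : Y} (hx : x ∈ P) :
    Commute (ι x) (ι z) := by
  have h1 : P.normalizerMonoidHom ⟨z, hzP⟩ = 1 := by
    have hd : orderOf (P.normalizerMonoidHom ⟨z, hzP⟩) ∣ s :=
      (orderOf_map_dvd _ _).trans (dvd_of_eq (by rw [← Subgroup.orderOf_coe]; exact hz))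
    rcases (Nat.dvd_prime (Fact.out : s.Prime)).1 hd with h | h
    · exact orderOf_eq_one_iff.1 h
    · exact absurd (h ▸ orderOf_dvd_natCard _) haut
  have h2 : (⟨z, hzP⟩ : Subgroup.normalizer (P : Set Y)) ∈
      (Subgroup.centralizer (P : Set Y)).subgroupOf (Subgroup.normalizer (P : Set Y)) :=
    (Subgroup.normalizerMonoidHom_ker (H := P)).le h1
  exact (show Commute x z from Subgroup.mem_centralizer_iff.1 h2 x hx).map ι

include hexp in
omit [Finite Y] in
/-- The exponent of the fixed subgroup of an automorphism of prime order. -/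
theorem exists_fix_exponent {n s : ℕ} [Fact s.Prime] (hn : Nat.card E = 2 ^ n) (α : MulAut E)
    (hα : orderOf α = s) :
    ∃ k, k < n ∧ Nat.card (fix α) = 2 ^ k ∧ s ∣ 2 ^ n - 2 ^ k := by
  obtain ⟨k, hk⟩ := natCard_subgroup_two_pow hexp (fix α)
  have hd := dvd_card_sub_fix α hα ⊤ fun x _ => Subgroup.mem_top _
  rw [top_inf_eq, Subgroup.card_top, hn, hk] at hd
  refine ⟨k, ?_, hk, hd⟩
  have hle : k ≤ n := (Nat.pow_le_pow_iff_right one_lt_two).1
    (hn ▸ hk ▸ Nat.le_of_dvd Nat.card_pos (Subgroup.card_subgroup_dvd_card _))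
  refine lt_of_le_of_ne hle fun h => ?_
  have htop : fix α = ⊤ := Subgroup.eq_top_of_card_eq _ (by rw [hk, hn, h])
  have h1 : α = 1 := MulEquiv.ext fun x => mem_fix.1 (htop ▸ Subgroup.mem_top x)
  rw [h1, orderOf_one] at hα
  exact (Fact.out : s.Prime).one_lt.ne hα

include hexp in
omit [Finite Y] in
/-- Commuting automorphisms of prime orders and their common fixed points. -/
theorem exists_common_exponent {s t a c : ℕ} [Fact s.Prime] [Fact t.Prime] {α β : MulAut E}
    (hα : orderOf α = s) (hβ : orderOf β = t) (hab : Commute α β)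
    (ha : Nat.card (fix α) = 2 ^ a) (hc : Nat.card (fix β) = 2 ^ c) :
    ∃ e, Nat.card (fix α ⊓ fix β : Subgroup E) = 2 ^ e ∧ e ≤ a ∧ e ≤ c ∧
      t ∣ 2 ^ a - 2 ^ e ∧ s ∣ 2 ^ c - 2 ^ e := by
  obtain ⟨e, he⟩ := natCard_subgroup_two_pow hexp (fix α ⊓ fix β)
  have h1 := dvd_card_sub_fix β hβ (fix α) fun x hx => fix_invariant hab hx
  have h2 := dvd_card_sub_fix α hα (fix β) fun x hx => fix_invariant hab.symm hx
  rw [ha, he] at h1
  rw [hc, inf_comm, he] at h2
  refine ⟨e, he, ?_, ?_, h1, h2⟩
  · exact (Nat.pow_le_pow_iff_right one_lt_two).1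
      (ha ▸ he ▸ Subgroup.card_le_of_le inf_le_left)
  · exact (Nat.pow_le_pow_iff_right one_lt_two).1
      (hc ▸ he ▸ Subgroup.card_le_of_le inf_le_right)

include hexp in
omit [Finite Y] in
/-- In `GL(6,2)` nothing of order `5` or `31` centralises an element of order `7`. -/
theorem not_commute_seven {s : ℕ} [Fact s.Prime] (hs : s = 5 ∨ s = 31) (hn : Nat.card E = 2 ^ 6)
    {α β : MulAut E} (hα : orderOf α = 7) (hβ : orderOf β = s) (hab : Commute α β) : False := by
  haveI : Fact (Nat.Prime 7) := ⟨by norm_num⟩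
  obtain ⟨a, ha6, ha, hda⟩ := exists_fix_exponent hexp hn α hα
  obtain ⟨c, hc6, hc, hdc⟩ := exists_fix_exponent hexp hn β hβ
  obtain ⟨e, -, hea, hec, h1, h2⟩ := exists_common_exponent hexp hα hβ hab ha hc
  rcases hs with rfl | rfl <;> interval_cases c <;> norm_num at hdc <;>
    interval_cases a <;> norm_num at hda <;> interval_cases e <;> first | omega | norm_num at h1 | norm_num at h2

include hexp in
omit [Finite Y] in
/-- In `GL(6,2)` no group of order nine and exponent three centralises an element of order `7`. -/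
theorem not_commute_nine (hn : Nat.card E = 2 ^ 6) {α u v : MulAut E} (hα : orderOf α = 7)
    (hu : orderOf u = 3) (hv : orderOf v = 3) (huv : Commute u v) (hv' : v ∉ Subgroup.zpowers u)
    (hau : Commute α u) (hav : Commute α v) : False := by
  haveI : Fact (Nat.Prime 7) := ⟨by norm_num⟩
  haveI : Fact (Nat.Prime 3) := ⟨by norm_num⟩
  have h3 : ∀ {w : MulAut E}, orderOf w = 3 → w * w * w = 1 := fun {w} hw => by
    rw [← pow_orderOf_eq_one w, hw]; simp only [pow_succ, pow_zero, one_mul]
  have hne : ∀ w, w = u ∨ w = v ∨ w = u * v ∨ w = u * v * v → Commute α w ∧ orderOf w = 3 := by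
    intro w hw
    have hv3 := h3 hv
    have hu3 := h3 hu
    have ho : ∀ x : MulAut E, Commute u x → x * x * x = 1 → u * x ≠ 1 → orderOf (u * x) = 3 := by
      intro x hux hx hne1
      refine orderOf_eq_prime ?_ hne1
      rw [hux.mul_pow]
      simp only [pow_succ, pow_zero, one_mul]
      rw [hu3, hx, mul_one]
    have hni : ∀ x : MulAut E, x ∈ Subgroup.zpowers v → (v ∈ Subgroup.zpowers x) → u * x ≠ 1 := by
      intro x _ hxv h
      refine hv' (Subgroup.zpowers_le.2 ?_ hxv)
      rw [eq_inv_of_mul_eq_one_right h]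
      exact inv_mem (Subgroup.mem_zpowers u)
    rcases hw with rfl | rfl | rfl | rfl
    · exact ⟨hau, hu⟩
    · exact ⟨hav, hv⟩
    · exact ⟨hau.mul_right hav, ho v huv hv3
        (hni v (Subgroup.mem_zpowers v) (Subgroup.mem_zpowers v))⟩
    · refine ⟨(hau.mul_right hav).mul_right hav, ?_⟩
      rw [mul_assoc]
      refine ho (v * v) (huv.mul_right huv) (by
        calc v * v * (v * v) * (v * v) = (v * v * v) * (v * v * v) := by group
          _ = 1 := by rw [hv3, mul_one]) (hni _ (Subgroup.mul_mem _ (Subgroup.mem_zpowers v)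
            (Subgroup.mem_zpowers v)) ?_)
      refine Subgroup.mem_zpowers_iff.2 ⟨2, ?_⟩
      calc (v * v) ^ (2 : ℤ) = v * v * v * v := by rw [zpow_two]; group
        _ = v := by rw [hv3, one_mul]
  obtain ⟨a, ha6, ha, hda⟩ := exists_fix_exponent hexp hn α hα
  have hcase : ∀ w, w = u ∨ w = v ∨ w = u * v ∨ w = u * v * v →
      ∃ e, Nat.card (fix α ⊓ fix w : Subgroup E) = 2 ^ e ∧
        (a = 0 → Nat.card (fix w) = 1) ∧ (a ≠ 0 → a = 3 ∧ e = 1) := by
    intro w hw
    obtain ⟨hc, ho⟩ := hne w hw
    obtain ⟨c, hc6, hcc, hdc⟩ := exists_fix_exponent hexp hn w ho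
    obtain ⟨e, he, hea, hec, h1, h2⟩ := exists_common_exponent hexp hα ho hc ha hcc
    refine ⟨e, he, fun h0 => ?_, fun h0 => ?_⟩
    · subst h0
      obtain rfl : e = 0 := by omega
      rw [hcc]
      interval_cases c <;> omega
    · interval_cases a <;> interval_cases c <;> interval_cases e <;> omega
  obtain ⟨e, he, h0, h1⟩ := hcase u (Or.inl rfl)
  rcases eq_or_ne a 0 with ha0 | ha0
  · subst ha0
    haveI : Nontrivial E := Finite.one_lt_card_iff_nontrivial.1 (by rw [hn]; norm_num)
    obtain ⟨x, hx⟩ := exists_ne (1 : E)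
    refine hx (Subgroup.mem_bot.1 (mem_of_fixed_le hexp (h3 hu) (h3 hv) huv ⊤ ⊥
      (fun _ _ => Subgroup.mem_top _) (fun _ _ => Subgroup.mem_top _)
      (fun w hw y _ hy => ?_) (Subgroup.mem_top x)))
    obtain ⟨e', -, h0', -⟩ := hcase w hw
    rw [← Subgroup.card_eq_one.1 (h0' rfl)]
    exact hy
  obtain ⟨ha3, he1⟩ := h1 ha0
  subst he1
  -- every element of order three fixes the same vectors of the fixed space
  set H := fix α ⊓ fix u with hH
  have hle : fix α ≤ H := fun x hx => by
    refine mem_of_fixed_le hexp (h3 hu) (h3 hv) huv (fix α) H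
      (fun y hy => fix_invariant hau hy) (fun y hy => fix_invariant hav hy) (fun w hw y hy hwy => ?_) hx
    obtain ⟨e', he', -, h1'⟩ := hcase w hw
    rw [(h1' ha0).2] at he'
    have huw : Commute w u := by
      rcases hw with rfl | rfl | rfl | rfl
      · exact Commute.refl _
      · exact huv.symm
      · exact (Commute.refl u).mul_left huv.symm
      · exact ((Commute.refl u).mul_left huv.symm).mul_left huv.symm
    -- `u` permutes the two common fixed vectors of `α` and `w`
    have hmem : u y ∈ fix α ⊓ fix w := ⟨fix_invariant hau hy, fix_invariant huw hwy⟩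
    refine ⟨hy, ?_⟩
    show u y = y
    by_cases hy1 : y = 1
    · rw [hy1, map_one]
    have h2 : ∀ z ∈ fix α ⊓ fix w, z ≠ 1 → z = y := by
      intro z hz hz1
      have hcard : Nat.card {x : (fix α ⊓ fix w : Subgroup E) // x ≠ 1} = 1 := by
        classical
        haveI := Fintype.ofFinite (fix α ⊓ fix w : Subgroup E)
        rw [Nat.card_eq_fintype_card, Fintype.card_subtype_compl, Fintype.card_subtype_eq,
          ← Nat.card_eq_fintype_card, he']
        rfl
      have hs := (Nat.card_eq_one_iff_unique.1 hcard).1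
      exact congrArg Subtype.val (congrArg Subtype.val (Subsingleton.elim
        (⟨⟨z, hz⟩, fun e => hz1 (congrArg Subtype.val e)⟩ : {x : (fix α ⊓ fix w : Subgroup E) // x ≠ 1})
        ⟨⟨y, hy, hwy⟩, fun e => hy1 (congrArg Subtype.val e)⟩))
    exact h2 _ hmem fun e => hy1 (u.injective (by rw [e, map_one]))
  have := Subgroup.card_le_of_le hle
  rw [ha, he, ha3] at this
  norm_num at this

include hι hexp htr in
/-- The sixty-four element case. -/
theorem isSolvable_quotient_of_six (hn : Nat.card E = 2 ^ 6) : Group.IsSolvable (Y ⧸ X) := by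
  classical
  haveI : Nontrivial E := Finite.one_lt_card_iff_nontrivial.1 (by rw [hn]; norm_num)
  obtain ⟨r, A, hr, hA⟩ := card_mulAut_dvd_elementary hexp hn
  have hY : Nat.card Y ∣ 2 ^ (A + 15) * (3 ^ 4 * 5 * 7 ^ 2 * 31) := by
    refine ((Subgroup.card_dvd_of_injective ι hι).trans hA).trans ?_
    rw [pow_add, mul_assoc]
    refine mul_dvd_mul_left _ ?_
    interval_cases r <;> norm_num [Finset.prod_range_succ]
  set Q := Y ⧸ X
  have hXQ : Nat.card Q * Nat.card X = Nat.card Y :=
    (Subgroup.card_eq_card_quotient_mul_card_subgroup X).symm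
  have h63 : 63 ∣ Nat.card X := by
    have := sub_one_dvd_card_of_transitive ι X htr
    rwa [hn] at this
  have hYodd : ∀ {p k : ℕ}, p.Prime → p ≠ 2 → p ^ k ∣ Nat.card Y → p ^ k ∣ 3 ^ 4 * 5 * 7 ^ 2 * 31 :=
    fun {p k} hp hp2 h =>
      (Nat.Coprime.dvd_of_dvd_mul_left
        (((Nat.coprime_primes hp Nat.prime_two).2 hp2).pow k (A + 15)) (h.trans hY))
  -- Sylow subgroups of `X` and their normalizers
  have hlift : ∀ {q : ℕ} [Fact q.Prime] (P : Sylow q X) {s : ℕ} [Fact s.Prime], s ∣ Nat.card Q →
      ∃ z : Y, orderOf z = s ∧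
        z ∈ Subgroup.normalizer (((P : Subgroup X).map X.subtype : Subgroup Y) : Set Y) := by
    intro q _ P s _ hs
    set N := Subgroup.normalizer (((P : Subgroup X).map X.subtype : Subgroup Y) : Set Y)
    have hsurj : Function.Surjective ((QuotientGroup.mk' X).comp N.subtype) := fun a => by
      obtain ⟨y, rfl⟩ := QuotientGroup.mk'_surjective X a
      have : y ∈ N ⊔ X := by rw [Sylow.normalizer_sup_eq_top P]; trivial
      obtain ⟨m, hm, x, hx, rfl⟩ := Subgroup.mem_sup_of_normal_right.1 this
      exact ⟨⟨m, hm⟩, by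
        show QuotientGroup.mk' X m = _
        rw [map_mul, show QuotientGroup.mk' X x = 1 from (QuotientGroup.eq_one_iff _).2 hx, mul_one]⟩
    obtain ⟨z, hz⟩ := exists_prime_orderOf_dvd_card' (G := N) s
      (hs.trans (Subgroup.card_dvd_of_surjective _ hsurj))
    exact ⟨z, by rw [Subgroup.orderOf_coe, hz], z.2⟩
  haveI h7 : Fact (Nat.Prime 7) := ⟨by norm_num⟩
  haveI h3 : Fact (Nat.Prime 3) := ⟨by norm_num⟩
  obtain ⟨P7⟩ := (inferInstance : Nonempty (Sylow 7 X))
  set R7 := (P7 : Subgroup X).map X.subtype with hR7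
  obtain ⟨k7, hk7⟩ := IsPGroup.iff_card.1 (P7.2.map X.subtype)
  have hk7' : 1 ≤ k7 ∧ k7 ≤ 2 := by
    constructor
    · have h := P7.ne_bot_of_dvd_card ((show 7 ∣ 63 by norm_num).trans h63)
      by_contra h0
      obtain rfl : k7 = 0 := by omega
      rw [pow_zero, Subgroup.card_eq_one, Subgroup.map_eq_bot_iff_of_injective _ X.subtype_injective] at hk7
      exact h hk7
    · have h := hYodd h7.out (by norm_num) (k := k7) (hk7 ▸ Subgroup.card_subgroup_dvd_card R7)
      by_contra hk
      have := (pow_dvd_pow 7 (show 3 ≤ k7 by omega)).trans h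
      norm_num at this
  have hno : ∀ s : ℕ, s = 5 ∨ s = 31 → ¬ s ∣ Nat.card Q := by
    intro s hs hsQ
    haveI : Fact s.Prime := ⟨by rcases hs with rfl | rfl <;> norm_num⟩
    obtain ⟨z, hz, hzN⟩ := hlift P7 hsQ
    obtain ⟨r', a', hr', haut⟩ := card_mulAut_dvd_pgroup (G := R7) hk7
    have hnd : ¬ s ∣ Nat.card (MulAut R7) := fun h => by
      have h2 := h.trans haut
      rcases (Fact.out : s.Prime).dvd_mul.1 h2 with h3 | h3
      · have := (Nat.prime_dvd_prime_iff_eq Fact.out h7.out).1 ((Fact.out : s.Prime).dvd_of_dvd_pow h3)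
        omega
      · have : r' ≤ 2 := hr'.trans hk7'.2
        rcases hs with rfl | rfl <;> interval_cases r' <;> norm_num [Finset.prod_range_succ] at h3
    obtain ⟨y, hy⟩ := exists_prime_orderOf_dvd_card' (G := R7) 7 (hk7 ▸ dvd_pow_self 7 (by omega))
    exact not_commute_seven hexp hs hn
      (α := ι (y : Y)) (by rw [orderOf_injective ι hι, Subgroup.orderOf_coe, hy])
      (by rw [orderOf_injective ι hι, hz]) (commute_of_normalizer ι hι R7 hz hzN hnd y.2)
  have hQd : Nat.card Q ∣ 2 ^ (A + 15) * (3 ^ 4 * 7 ^ 2) := by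
    have h := (Dvd.intro _ hXQ).trans hY
    have hc : Nat.Coprime (Nat.card Q) (5 * 31) :=
      Nat.Coprime.mul_right ((Nat.Prime.coprime_iff_not_dvd (by norm_num)).2 (hno 5 (Or.inl rfl))).symm
        ((Nat.Prime.coprime_iff_not_dvd (by norm_num)).2 (hno 31 (Or.inr rfl))).symm
    refine hc.dvd_of_dvd_mul_right (h.trans (dvd_of_eq (by ring)))
  by_cases h7Q : 7 ∣ Nat.card Q
  swap
  · refine CfsgLib.CharTheory.isSolvable_of_card_dvd_pow_mul_pow 2 3 (A + 15) 4 Nat.prime_two
      Nat.prime_three ?_
    have hc : Nat.Coprime (Nat.card Q) (7 ^ 2) :=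
      (((Nat.Prime.coprime_iff_not_dvd h7.out).2 h7Q).symm).pow_right 2
    exact hc.dvd_of_dvd_mul_right (hQd.trans (dvd_of_eq (by ring)))
  obtain ⟨P3⟩ := (inferInstance : Nonempty (Sylow 3 X))
  set R3 := (P3 : Subgroup X).map X.subtype with hR3
  have hR3p : IsPGroup 3 R3 := P3.2.map X.subtype
  obtain ⟨k3, hk3⟩ := IsPGroup.iff_card.1 hR3p
  have hk3' : 2 ≤ k3 ∧ k3 ≤ 4 := by
    constructor
    · have h := P3.pow_dvd_card_of_pow_dvd_card (n := 2) ((show 3 ^ 2 ∣ 63 by norm_num).trans h63)
      have h2 : Nat.card R3 = Nat.card P3 := Subgroup.card_map_of_injective X.subtype_injective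
      rw [← h2, hk3] at h
      exact (Nat.pow_dvd_pow_iff_le_right (by norm_num)).1 h
    · have h := hYodd h3.out (by norm_num) (k := k3) (hk3 ▸ Subgroup.card_subgroup_dvd_card R3)
      by_contra hk
      have := (pow_dvd_pow 3 (show 5 ≤ k3 by omega)).trans h
      norm_num at this
  obtain ⟨r', a', hr', haut⟩ := card_mulAut_dvd_pgroup (G := R3) hk3
  have hprod : r' ≤ 4 := hr'.trans hk3'.2
  by_cases h9 : ∃ w ∈ R3, orderOf w = 9
  · -- the centralizer of `R3` is cyclic
    obtain ⟨w, hwR, hw⟩ := h9
    have hirr : ∀ W : Subgroup E, (∀ x ∈ W, ι w x ∈ W) → W = ⊥ ∨ W = ⊤ := by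
      intro W hW
      have hw3 : orderOf ((ι w) ^ 3) = 3 := by
        rw [orderOf_pow, orderOf_injective ι hι, hw]; norm_num
      obtain ⟨c, hc6, hcc, hdc⟩ := exists_fix_exponent hexp hn _ hw3
      have hfix : fix ((ι w) ^ 3) = ⊥ := by
        by_contra hne
        -- `w` permutes the moved vectors in orbits of nine
        let S := {x : E // x ∉ fix ((ι w) ^ 3)}
        let Z := Subgroup.zpowers (ι w)
        letI : MulAction Z S :=
          { smul := fun g x => ⟨(g : MulAut E) x.1, fun h => x.2 (by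
              have hc : Commute ((ι w) ^ 3) ((g : MulAut E)⁻¹) := by
                obtain ⟨i, hi⟩ := Subgroup.mem_zpowers_iff.1 g.2
                rw [← hi]; exact (((Commute.refl (ι w)).zpow_right i).pow_left 3).inv_right
              have := fix_invariant hc h
              rwa [MulAut.inv_apply_self] at this)⟩
            one_smul := fun x => Subtype.ext rfl
            mul_smul := fun g g' x => Subtype.ext rfl }
        have hd : Nat.card Z ∣ Nat.card S := dvd_card_of_free fun g hg x hgx => x.2 (by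
          have hgx' : (g : MulAut E) x.1 = x.1 := congrArg Subtype.val hgx
          obtain ⟨i, -, hi⟩ := Finset.mem_image.1 (mem_zpowers_iff_mem_range_orderOf.1 g.2)
          have hg9 : ¬ 9 ∣ i := fun h => hg (Subtype.ext (by
            obtain ⟨j, rfl⟩ := h
            rw [← hi, pow_mul, ← hw, ← orderOf_injective ι hι w, pow_orderOf_eq_one, one_pow]
            rfl))
          obtain ⟨j, hj⟩ : ∃ j, (ι w) ^ 3 = ((ι w) ^ i) ^ j := by
            have h9' : (ι w) ^ 9 = 1 := by rw [← hw, ← orderOf_injective ι hι w, pow_orderOf_eq_one]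
            have hi9 : (ι w) ^ i = (ι w) ^ (i % 9) := by
              conv_lhs => rw [← Nat.mod_add_div i 9, pow_add, pow_mul, h9', one_pow, mul_one]
            have : i % 9 ≠ 0 := fun h => hg9 (Nat.dvd_of_mod_eq_zero h)
            have hlt : i % 9 < 9 := Nat.mod_lt _ (by norm_num)
            rw [hi9]
            have hex : ∀ m, m < 9 → m ≠ 0 → ∃ j, j < 9 ∧ m * j % 9 = 3 := by decide
            obtain ⟨j, -, hj⟩ := hex _ hlt this
            refine ⟨j, ?_⟩
            rw [← pow_mul, ← Nat.mod_add_div (i % 9 * j) 9, hj, pow_add, pow_mul _ 9, h9', one_pow, mul_one]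
          show ((ι w) ^ 3) x.1 = x.1
          have h5 := fix_pow (α := (ι w) ^ i) (x := x.1) (by rw [hi]; exact hgx') j
          rwa [← hj] at h5)
        rw [Nat.card_zpowers, orderOf_injective ι hι, hw] at hd
        have hS : Nat.card S = 2 ^ 6 - 2 ^ c := by
          haveI := Fintype.ofFinite E
          classical
          have h4 : Fintype.card {x : E // x ∈ fix ((ι w) ^ 3)} = 2 ^ c :=
            Nat.card_eq_fintype_card.symm.trans hcc
          rw [Nat.card_eq_fintype_card, Fintype.card_subtype_compl, h4, ← Nat.card_eq_fintype_card, hn]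
        rw [hS] at hd
        rcases Nat.eq_zero_or_pos c with h0 | h0
        · exact hne (Subgroup.card_eq_one.1 (by rw [hcc, h0, pow_zero]))
        · interval_cases c <;> norm_num at hd
      obtain ⟨k, hk⟩ := natCard_subgroup_two_pow hexp W
      have hk6 : k ≤ 6 := (Nat.pow_le_pow_iff_right one_lt_two).1
        (hn ▸ hk ▸ Nat.le_of_dvd Nat.card_pos (Subgroup.card_subgroup_dvd_card W))
      let S := {x : E // x ∈ W ∧ x ≠ 1}
      let Z := Subgroup.zpowers (ι w)
      have hpow : ∀ g : Z, ∀ x ∈ W, (g : MulAut E) x ∈ W := by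
        rintro ⟨g, hg⟩ x hx
        obtain ⟨i, -, hi⟩ := Finset.mem_image.1 (mem_zpowers_iff_mem_range_orderOf.1 hg)
        show g x ∈ W
        rw [← hi]
        clear hi
        induction i with
        | zero => exact hx
        | succ i ih => rw [pow_succ', MulAut.mul_apply]; exact hW _ ih
      letI : MulAction Z S :=
        { smul := fun g x => ⟨(g : MulAut E) x.1, hpow g _ x.2.1,
            (EmbeddingLike.map_ne_one_iff (f := (g : MulAut E))).2 x.2.2⟩
          one_smul := fun x => Subtype.ext rfl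
          mul_smul := fun g g' x => Subtype.ext rfl }
      have hd : Nat.card Z ∣ Nat.card S := dvd_card_of_free fun g hg x hgx => x.2.2 (by
        have hgx' : (g : MulAut E) x.1 = x.1 := congrArg Subtype.val hgx
        obtain ⟨i, -, hi⟩ := Finset.mem_image.1 (mem_zpowers_iff_mem_range_orderOf.1 g.2)
        have h9' : (ι w) ^ 9 = 1 := by rw [← hw, ← orderOf_injective ι hι w, pow_orderOf_eq_one]
        have hi9 : (ι w) ^ i = (ι w) ^ (i % 9) := by
          conv_lhs => rw [← Nat.mod_add_div i 9, pow_add, pow_mul, h9', one_pow, mul_one]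
        have hne0 : i % 9 ≠ 0 := fun h => hg (Subtype.ext (by
          rw [← hi, hi9, h, pow_zero]; rfl))
        have hex : ∀ m, m < 9 → m ≠ 0 → ∃ j, j < 9 ∧ m * j % 9 = 3 := by decide
        obtain ⟨j, -, hj⟩ := hex _ (Nat.mod_lt _ (by norm_num)) hne0
        have hmem : x.1 ∈ fix ((ι w) ^ 3) := by
          rw [mem_fix, ← hj, show (ι w) ^ (i % 9 * j % 9) = ((ι w) ^ i) ^ j by
            rw [hi9, ← pow_mul]
            conv_rhs => rw [← Nat.mod_add_div (i % 9 * j) 9, pow_add, pow_mul _ 9, h9', one_pow, mul_one]]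
          exact fix_pow (by rw [hi]; exact hgx') j
        rw [hfix, Subgroup.mem_bot] at hmem
        exact hmem)
      rw [Nat.card_zpowers, orderOf_injective ι hι, hw] at hd
      have hS : Nat.card S = 2 ^ k - 1 := by
        classical
        haveI := Fintype.ofFinite W
        rw [← hk, Nat.card_congr (Equiv.subtypeSubtypeEquivSubtypeInter (fun x => x ∈ W) (fun x : E => x ≠ 1)).symm,
          Nat.card_congr (Equiv.subtypeEquivRight (fun x : W => not_congr
            (OneMemClass.coe_eq_one (x := x)))),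
          Nat.card_eq_fintype_card, Fintype.card_subtype_compl, Fintype.card_subtype_eq,
          ← Nat.card_eq_fintype_card]
      rw [hS] at hd
      interval_cases k <;> first | omega | skip
      · exact Or.inl (Subgroup.card_eq_one.1 (hk.trans (pow_zero 2)))
      · exact Or.inr (Subgroup.eq_top_of_card_eq _ (by rw [hk, hn]))
    haveI := isCyclic_centralizer_of_irred ι hι w hirr
    haveI := isSolvable_of_isCyclic (H := Subgroup.centralizer ({w} : Set Y))
    set N := Subgroup.normalizer (R3 : Set Y) with hN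
    set K := R3.normalizerMonoidHom.ker with hK
    set f := (QuotientGroup.mk' X).comp N.subtype with hf
    have hfs : Function.Surjective f := fun a => by
      obtain ⟨y, rfl⟩ := QuotientGroup.mk'_surjective X a
      have : y ∈ N ⊔ X := by rw [hN, hR3, Sylow.normalizer_sup_eq_top P3]; trivial
      obtain ⟨m, hm, x, hx, rfl⟩ := Subgroup.mem_sup_of_normal_right.1 this
      exact ⟨⟨m, hm⟩, by
        show QuotientGroup.mk' X m = _
        rw [map_mul, show QuotientGroup.mk' X x = 1 from (QuotientGroup.eq_one_iff _).2 hx, mul_one]⟩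
    haveI : Group.IsSolvable K := by
      refine Group.isSolvable_of_isSolvable_injective
        (f := MonoidHom.codRestrict (N.subtype.comp K.subtype)
          (Subgroup.centralizer ({w} : Set Y)) fun k => ?_)
        fun a b h => Subtype.ext (Subtype.ext (congrArg (fun z : Subgroup.centralizer ({w} : Set Y) => (z : Y)) h))
      have h : (k : N) ∈ (Subgroup.centralizer (R3 : Set Y)).subgroupOf N :=
        (Subgroup.normalizerMonoidHom_ker (H := R3)).le k.2
      exact Subgroup.centralizer_le (Set.singleton_subset_iff.2 hwR) h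
    haveI : (K.map f).Normal := Subgroup.Normal.map inferInstance f hfs
    haveI : Group.IsSolvable (K.map f) := Group.isSolvable_of_surjective (f.subgroupMap_surjective K)
    have hd1 : Nat.card (Q ⧸ K.map f) ∣ Nat.card (MulAut R3) := by
      refine (Subgroup.card_dvd_of_surjective
        (QuotientGroup.map K (K.map f) f (Subgroup.le_comap_map f K)) ?_).trans
        (Subgroup.card_dvd_of_injective _ (QuotientGroup.kerLift_injective R3.normalizerMonoidHom))
      intro a
      obtain ⟨b, rfl⟩ := QuotientGroup.mk_surjective a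
      obtain ⟨c, rfl⟩ := hfs b
      exact ⟨(c : N ⧸ K), rfl⟩
    have hd2 : Nat.card (Q ⧸ K.map f) ∣ Nat.card Q := Subgroup.card_quotient_dvd_card _
    haveI : Group.IsSolvable (Q ⧸ K.map f) := by
      refine CfsgLib.CharTheory.isSolvable_of_card_dvd_pow_mul_pow 2 3 (A + 15) 4 Nat.prime_two
        Nat.prime_three ?_
      have hc : Nat.Coprime (Nat.card (Q ⧸ K.map f)) (7 ^ 2) := by
        refine (Nat.Coprime.pow_left 2 ((Nat.Prime.coprime_iff_not_dvd h7.out).2 fun h => ?_)).symm
        rcases h7.out.dvd_mul.1 ((h.trans hd1).trans haut) with h5 | h5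
        · have := h7.out.dvd_of_dvd_pow h5
          norm_num at this
        · interval_cases r' <;> norm_num [Finset.prod_range_succ] at h5
      exact hc.dvd_of_dvd_mul_right ((hd2.trans hQd).trans (dvd_of_eq (by ring)))
    exact (Group.isSolvable_iff_subgroup_quotient (K.map f)).2 ⟨inferInstance, inferInstance⟩
  exfalso
  push Not at h9
  obtain ⟨z, hz, hzN⟩ := hlift P3 h7Q
  have hnd : ¬ 7 ∣ Nat.card (MulAut R3) := fun h => by
    rcases h7.out.dvd_mul.1 (h.trans haut) with h5 | h5
    · have := h7.out.dvd_of_dvd_pow h5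
      norm_num at this
    · interval_cases r' <;> norm_num [Finset.prod_range_succ] at h5
  have hcomm : ∀ x ∈ R3, Commute (ι z) (ι x) := fun x hx =>
    (commute_of_normalizer ι hι R3 hz hzN hnd hx).symm
  have hexp3 : ∀ x : R3, x ≠ 1 → orderOf x = 3 := by
    intro x hx
    obtain ⟨i, -, hi⟩ := (Nat.dvd_prime_pow h3.out).1 (hk3 ▸ orderOf_dvd_natCard x)
    rcases i with _ | _ | i
    · exact absurd (orderOf_eq_one_iff.1 (hi.trans (pow_zero 3))) hx
    · exact hi.trans (pow_one 3)
    · refine absurd ?_ (h9 ((x ^ 3 ^ i : R3) : Y) (x ^ 3 ^ i : R3).2)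
      rw [Subgroup.orderOf_coe, orderOf_pow_of_dvd (by positivity) (hi ▸ pow_dvd_pow 3 (by omega)), hi,
        Nat.pow_div (by omega) (by norm_num), show i + 1 + 1 - i = 2 by omega]
  haveI : Nontrivial R3 := Finite.one_lt_card_iff_nontrivial.1
    (by rw [hk3]; exact Nat.one_lt_pow (by omega) (by norm_num))
  haveI : Nontrivial (Subgroup.center R3) := hR3p.center_nontrivial
  obtain ⟨u, hu⟩ := exists_ne (1 : Subgroup.center R3)
  have hu3 : orderOf (u : R3) = 3 := hexp3 _ fun h => hu (Subtype.ext h)
  obtain ⟨v, hv⟩ : ∃ v : R3, v ∉ Subgroup.zpowers (u : R3) := by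
    by_contra h
    push Not at h
    have h2 : Nat.card (Subgroup.zpowers (u : R3)) = Nat.card R3 := by
      rw [(Subgroup.eq_top_iff' _).2 h, Subgroup.card_top]
    rw [Nat.card_zpowers, hu3, hk3] at h2
    have := (pow_dvd_pow 3 hk3'.1).trans (dvd_of_eq h2.symm)
    norm_num at this
  have hv3 : orderOf v = 3 := hexp3 _ fun h => hv (h ▸ one_mem _)
  refine not_commute_nine hexp hn (α := ι z) (u := ι ((u : R3) : Y)) (v := ι (v : Y))
    (by rw [orderOf_injective ι hι, hz]) (by rw [orderOf_injective ι hι, Subgroup.orderOf_coe, hu3])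
    (by rw [orderOf_injective ι hι, Subgroup.orderOf_coe, hv3]) ?_ ?_ (hcomm _ (u : R3).2) (hcomm _ v.2)
  · exact (show Commute (((u : R3) : Y)) (v : Y) from
      congrArg Subtype.val (Subgroup.mem_center_iff.1 u.2 v).symm).map ι
  · intro h
    obtain ⟨i, hi⟩ := Subgroup.mem_zpowers_iff.1 h
    rw [← map_zpow] at hi
    exact hv (Subgroup.mem_zpowers_iff.2 ⟨i, Subtype.ext (hι hi)⟩)

include hι hexp htr in
/-- The quotient by a transitive normal subgroup is solvable. -/
theorem isSolvable_quotient_of_transitive : Group.IsSolvable (Y ⧸ X) := by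
  obtain ⟨n, hn⟩ := natCard_subgroup_two_pow hexp (⊤ : Subgroup E)
  rw [Subgroup.card_top] at hn
  by_cases hsmall : n ≤ 2
  · obtain ⟨r, a, hr, hA⟩ := card_mulAut_dvd_elementary hexp hn
    refine CfsgLib.CharTheory.isSolvable_of_card_dvd_pow_mul_pow 2 3 (a + 1) 1 Nat.prime_two
      Nat.prime_three (((Subgroup.card_quotient_dvd_card X).trans (Subgroup.card_dvd_of_injective ι hι)).trans
        (hA.trans ?_))
    rw [pow_succ 2 a, mul_assoc]
    refine mul_dvd_mul_left _ ?_
    interval_cases n <;> interval_cases r <;> norm_num [Finset.prod_range_succ]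
  by_cases h6 : n = 6
  · subst h6
    exact isSolvable_quotient_of_six ι hι hexp X htr hn
  obtain ⟨q, hq⟩ := CfsgLib.Zsigmondy.exists_isPpd (a := 2) (n := n) one_lt_two (by omega)
    (fun h => h6 h.2) (fun h => by omega)
  exact isSolvable_quotient_of_ppd ι hι hexp X htr hn (by omega) hq

end Transitive

end CfsgLib.OutSolvableInv
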